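import Cfsg.Agent.H617.Two.Defs
import Mathlib
import Cfsg.Agent.SmallSimple.KleinFourAut
import Cfsg.Agent.SmallSimple.S1000.FrameAut
import Cfsg.Agent.S0200
set_option linter.all false

-- part: H807/S45/TSix
section
/-!
# S4543 T6 (`|Q| = 16`, `Q` nonabelian)
-/

set_option autoImplicit false
set_option linter.unusedSectionVars false

namespace Cfsg.Agent.H807.S45

open Subgroup Cfsg.Agent.H617.Two

section basics

variable {D : Type*} [Group D]

/-- elements outside of a subgroup of relative index two -/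
theorem mul_mem_of_half [Finite D] {K L : Subgroup D} (hle : K ≤ L) (hc : Nat.card L = 2 * Nat.card K) {x w : D}
    (hx : x ∈ L) (hw : w ∈ L) (hxK : x ∉ K) (hwK : w ∉ K) : x * w ∈ K := by
  have h1 : (K.subgroupOf L).index = 2 := by
    have h2 := Subgroup.card_mul_index (K.subgroupOf L)
    have h3 : Nat.card (K.subgroupOf L) = Nat.card K := Nat.card_congr (Subgroup.subgroupOfEquivOfLe hle).toEquiv
    have h4 : 0 < Nat.card K := Nat.card_pos
    rw [h3, hc] at h2
    nlinarith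
  have h5 := (Subgroup.mul_mem_iff_of_index_two h1 (a := ⟨x, hx⟩) (b := ⟨w, hw⟩)).2
    ⟨fun h => absurd h hxK, fun h => absurd h hwK⟩
  exact h5

/-- subgroups of order at most two -/
theorem eq_of_card_le_two [Finite D] {K : Subgroup D} (hK : Nat.card K ≤ 2) {z : D} (hz : z ∈ K) (hz1 : z ≠ 1)
    {x : D} (hx : x ∈ K) : x = 1 ∨ x = z := by
  by_contra hcon
  push Not at hcon
  have h1 : Function.Injective (![⟨1, K.one_mem⟩, ⟨z, hz⟩, ⟨x, hx⟩] : Fin 3 → K) := by
    intro i j hij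
    fin_cases i <;> fin_cases j <;> simp_all [Subtype.ext_iff, eq_comm]
  have h2 := Nat.card_le_card_of_injective _ h1
  simp only [Nat.card_eq_fintype_card, Fintype.card_fin] at h2
  omega

end basics

section str

variable {D : Type*} [Group D] [Finite D] {Q R : Subgroup D} {y p q : D}

/-- `|Q| = 4 |R|` at least -/
theorem card_le_four (h : Str Q R y p q) : Nat.card Q ≤ 4 * Nat.card R := by
  classical
  have h1 : ∀ x : Q, ∃ ir : Fin 4 × R, (x : D) = (![1, p, q, p * q] : Fin 4 → D) ir.1 * ir.2 := by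
    intro x
    obtain ⟨r, hr, hx | hx | hx | hx⟩ := h.cover x x.2
    · exact ⟨(0, ⟨r, hr⟩), by simpa using hx⟩
    · exact ⟨(1, ⟨r, hr⟩), by simpa using hx⟩
    · exact ⟨(2, ⟨r, hr⟩), by simpa using hx⟩
    · exact ⟨(3, ⟨r, hr⟩), by simpa using hx⟩
  choose f hf using h1
  have h2 : Function.Injective f := fun a b hab => Subtype.ext (by rw [hf a, hf b, hab])
  have h3 := Nat.card_le_card_of_injective _ h2
  rw [Nat.card_prod, Nat.card_eq_fintype_card (α := Fin 4), Fintype.card_fin] at h3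
  exact h3

theorem card_R (h : Str Q R y p q) (hQ : Nat.card Q = 16) : Nat.card R = 4 := by
  have h1 := card_le_four h
  rw [hQ] at h1
  have h2 : Nat.card R ∣ 2 ^ 4 := by
    have := Subgroup.card_dvd_of_le h.RQ
    rw [hQ] at this
    exact this
  obtain ⟨k, hk, hk2⟩ := (Nat.dvd_prime_pow Nat.prime_two).1 h2
  have h3 : Nat.card R ≠ 16 := fun h3 => h.pR (by
    have := Subgroup.eq_of_le_of_card_ge h.RQ (by omega)
    rw [this]; exact h.pQ)
  have h4 : Nat.card R ≠ 8 := fun h4 =>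
    h.pqR (mul_mem_of_half h.RQ (by omega) h.pQ h.qQ h.pR h.qR)
  interval_cases k <;> simp_all

/-- `w q w⁻¹` for `w ∈ Q` -/
theorem conj_q (h : Str Q R y p q) {w : D} (hw : w ∈ Q) : w * q * w⁻¹ = q ∨ w * q * w⁻¹ = p * p * q := by
  have hpq : p * q * p⁻¹ = p * p * q := by
    rw [h.comm]; group
  obtain ⟨r, hr, rfl | rfl | rfl | rfl⟩ := h.cover w hw
  · left; rw [← h.qc _ hr]; group
  · right
    rw [mul_inv_rev, mul_assoc p r q, ← h.qc _ hr, ← hpq]; group
  · left
    rw [mul_inv_rev, mul_assoc q r q, ← h.qc _ hr]; group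
  · right
    rw [mul_inv_rev, mul_assoc (p * q) r q, ← h.qc _ hr, ← hpq]; group

theorem y_s (h : Str Q R y p q) : y * (p * p) * y⁻¹ = p * p := by
  have h1 : y * (p * p) * y⁻¹ = (y * p * y⁻¹) * (y * p * y⁻¹) := by group
  rw [h1, h.yp]
  calc p * p * p * (p * p * p) = (p * p * (p * p)) * (p * p) := by group
    _ = p * p := by rw [h.pppp, one_mul]

/-- `y` normalizes `Q` -/
theorem y_mem (h : Str Q R y p q) {w : D} (hw : w ∈ Q) : y * w * y⁻¹ ∈ Q := by
  have h1 : y * p * y⁻¹ ∈ Q := by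
    rw [h.yp]; exact Q.mul_mem (Q.mul_mem h.pQ h.pQ) h.pQ
  have h2 : y * q * y⁻¹ ∈ Q := by
    rw [h.yq]; exact Q.mul_mem h.pQ h.qQ
  obtain ⟨r, hr, rfl | rfl | rfl | rfl⟩ := h.cover w hw
  · exact h.RQ (h.yR _ hr)
  · have : y * (p * r) * y⁻¹ = (y * p * y⁻¹) * (y * r * y⁻¹) := by group
    rw [this]; exact Q.mul_mem h1 (h.RQ (h.yR _ hr))
  · have : y * (q * r) * y⁻¹ = (y * q * y⁻¹) * (y * r * y⁻¹) := by group
    rw [this]; exact Q.mul_mem h2 (h.RQ (h.yR _ hr))
  · have : y * (p * q * r) * y⁻¹ = (y * p * y⁻¹) * (y * q * y⁻¹) * (y * r * y⁻¹) := by group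
    rw [this]; exact Q.mul_mem (Q.mul_mem h1 h2) (h.RQ (h.yR _ hr))

theorem y_norm (h : Str Q R y p q) : y ∈ normalizer (Q : Set D) := by
  have h1 : Q.map (MulAut.conj y).toMonoidHom = Q := by
    refine Subgroup.eq_of_le_of_card_ge ?_ ?_
    · rintro _ ⟨w, hw, rfl⟩
      exact y_mem h hw
    · rw [Nat.card_congr (Q.equivMapOfInjective _ (MulAut.conj y).injective).toEquiv.symm]
  rw [Subgroup.mem_normalizer_iff]
  intro w
  refine ⟨fun hw => y_mem h hw, fun hw => ?_⟩
  rw [← h1] at hw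
  obtain ⟨v, hv, hv2⟩ := hw
  have h2 : y * v * y⁻¹ = y * w * y⁻¹ := hv2
  have h3 : v = w := by
    have := congrArg (fun t => y⁻¹ * t * y) h2
    simpa [mul_assoc] using this
  rwa [← h3]

end str

section six

variable {D : Type*} [Group D] [Finite D] {Q R : Subgroup D} {y p q : D}

/-- the setup: everything about `g ∉ N_D(Q)` -/
structure Out (Q : Subgroup D) (g : D) : Prop where
  nN : g ∉ normalizer (Q : Set D)
  norm : ∀ n ∈ normalizer (Q : Set D), g⁻¹ * n * g ∈ normalizer (Q : Set D)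
  norm' : ∀ n ∈ normalizer (Q : Set D), g * n * g⁻¹ ∈ normalizer (Q : Set D)
  sq : g * g ∈ normalizer (Q : Set D)
  mulQ : ∀ x ∈ normalizer (Q : Set D), ∀ w ∈ normalizer (Q : Set D), x ∉ Q → w ∉ Q → x * w ∈ Q

theorem Out.of (hD : Nat.card D = 64) (hQ : Nat.card Q = 16) (hN : Nat.card (normalizer (Q : Set D)) = 32)
    {g : D} (hg : g ∉ normalizer (Q : Set D)) : Out Q g := by
  have h1 : (normalizer (Q : Set D)).index = 2 := by
    have := Subgroup.card_mul_index (normalizer (Q : Set D))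
    rw [hN, hD] at this
    omega
  have h2 := Subgroup.normal_of_index_eq_two h1
  refine ⟨hg, fun n hn => ?_, fun n hn => h2.conj_mem n hn g, ?_, fun x hx w hw hxQ hwQ =>
    mul_mem_of_half Subgroup.le_normalizer (by omega) hx hw hxQ hwQ⟩
  · have := h2.conj_mem n hn g⁻¹
    rwa [inv_inv] at this
  · exact (Subgroup.mul_mem_iff_of_index_two h1).2 Iff.rfl

/-- `g ↦ g⁻¹` -/
theorem Out.inv {g : D} (o : Out Q g) : Out Q g⁻¹ := by
  refine ⟨fun hc => o.nN (by simpa using inv_mem hc), fun n hn => ?_, fun n hn => ?_, ?_, o.mulQ⟩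
  · rw [inv_inv]; exact o.norm' n hn
  · rw [inv_inv]; exact o.norm n hn
  · have := inv_mem o.sq
    rwa [mul_inv_rev] at this

/-- `x ∈ gQg⁻¹ ↔ gxg⁻¹ ∈ Q` -/
theorem Out.iff {g : D} (o : Out Q g) (x : D) : g⁻¹ * x * g ∈ Q ↔ g * x * g⁻¹ ∈ Q := by
  have h1 := Subgroup.mem_normalizer_iff.1 o.sq (g⁻¹ * x * g)
  have h2 : g * g * (g⁻¹ * x * g) * (g * g)⁻¹ = g * x * g⁻¹ := by group
  rw [h2] at h1
  exact h1

/-- the coset `N ∖ Q` -/
theorem conj_out (h : Str Q R y p q) {g : D} (o : Out Q g) {n : D} (hn : n ∈ normalizer (Q : Set D)) (hnQ : n ∉ Q) :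
    n * q * n⁻¹ = p * q ∨ n * q * n⁻¹ = p * p * (p * q) := by
  have hyi : y⁻¹ ∉ Q := fun hc => h.yQ (by simpa using inv_mem hc)
  have hw : y⁻¹ * n ∈ Q := o.mulQ _ (inv_mem (y_norm h)) _ hn hyi hnQ
  have e : n * q * n⁻¹ = y * ((y⁻¹ * n) * q * (y⁻¹ * n)⁻¹) * y⁻¹ := by group
  rcases conj_q h hw with h1 | h1
  · left
    rw [e, h1, h.yq]
  · right
    rw [e, h1]
    calc y * (p * p * q) * y⁻¹ = (y * (p * p) * y⁻¹) * (y * q * y⁻¹) := by group
      _ = _ := by rw [y_s h, h.yq]

/-- elements of `N ∖ Q` normalize `R` -/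
theorem norm_R (h : Str Q R y p q) (hR : Nat.card R = 4) {g : D} (o : Out Q g) {n : D}
    (hn : n ∈ normalizer (Q : Set D)) {r : D} (hr : r ∈ R) : n * r * n⁻¹ ∈ R := by
  have hcomm : ∀ a ∈ R, ∀ b ∈ R, a * b = b * a := by
    haveI : Fact (Nat.Prime 2) := ⟨Nat.prime_two⟩
    have h1 := IsPGroup.isMulCommutative_of_card_eq_prime_sq (p := 2) (G := R) (by rw [hR]; norm_num)
    intro a ha b hb
    exact congrArg Subtype.val (h1.is_comm.comm (⟨a, ha⟩ : R) ⟨b, hb⟩)
  have hQR : ∀ w ∈ Q, ∀ r ∈ R, w * r = r * w := by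
    intro w hw r hr
    obtain ⟨r', hr', rfl | rfl | rfl | rfl⟩ := h.cover w hw
    · exact hcomm _ hr' _ hr
    · rw [mul_assoc, hcomm _ hr' _ hr, ← mul_assoc, h.pc _ hr, mul_assoc]
    · rw [mul_assoc, hcomm _ hr' _ hr, ← mul_assoc, h.qc _ hr, mul_assoc]
    · rw [mul_assoc, hcomm _ hr' _ hr, ← mul_assoc, mul_assoc p q r, h.qc _ hr, ← mul_assoc p r q, h.pc _ hr]
      group
  by_cases hnQ : n ∈ Q
  · rw [hQR n hnQ r hr]; simpa using hr
  · have hyi : y⁻¹ ∉ Q := fun hc => h.yQ (by simpa using inv_mem hc)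
    have hw : y⁻¹ * n ∈ Q := o.mulQ _ (inv_mem (y_norm h)) _ hn hyi hnQ
    have e : n * r * n⁻¹ = y * ((y⁻¹ * n) * r * (y⁻¹ * n)⁻¹) * y⁻¹ := by group
    rw [e, hQR _ hw r hr, mul_assoc r, mul_inv_cancel, mul_one]
    exact h.yR _ hr

theorem conj_closed {R : Subgroup D} {g : D} (hA : ∀ r ∈ R, g * r * g⁻¹ ∈ R) : ∀ r ∈ R, g⁻¹ * r * g ∈ R := by
  have h1 : R.map (MulAut.conj g).toMonoidHom = R := by
    refine Subgroup.eq_of_le_of_card_ge ?_ ?_
    · rintro _ ⟨w, hw, rfl⟩
      exact hA w hw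
    · rw [Nat.card_congr (R.equivMapOfInjective _ (MulAut.conj g).injective).toEquiv.symm]
  intro r hr
  rw [← h1] at hr
  obtain ⟨v, hv, hv2⟩ := hr
  have h2 : g * v * g⁻¹ = r := hv2
  have h3 : v = g⁻¹ * r * g := by rw [← h2]; group
  rwa [← h3]

/-- if `R ≤ gQg⁻¹` then `p ∈ gQg⁻¹` and `q ∉ gQg⁻¹` -/
theorem inter (h : Str Q R y p q) {g : D} (o : Out Q g) (hR1 : ∀ r ∈ R, g⁻¹ * r * g ∈ Q) :
    g⁻¹ * q * g ∉ Q ∧ g⁻¹ * (p * q) * g ∉ Q ∧ g⁻¹ * p * g ∈ Q := by
  have hyN := y_norm h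
  have hy : ∀ x, g⁻¹ * x * g ∈ Q ↔ g⁻¹ * (y * x * y⁻¹) * g ∈ Q := by
    intro x
    have h1 := Subgroup.mem_normalizer_iff.1 (o.norm y hyN) (g⁻¹ * x * g)
    have h2 : g⁻¹ * y * g * (g⁻¹ * x * g) * (g⁻¹ * y * g)⁻¹ = g⁻¹ * (y * x * y⁻¹) * g := by group
    rwa [h2] at h1
  have hmul : ∀ a b, g⁻¹ * (a * b) * g = (g⁻¹ * a * g) * (g⁻¹ * b * g) := fun a b => by group
  have h1 : g⁻¹ * q * g ∉ Q := by
    intro hq
    have h2 : g⁻¹ * (p * q) * g ∈ Q := by
      rw [← h.yq]; exact (hy q).1 hq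
    have h3 : g⁻¹ * p * g ∈ Q := by
      have : g⁻¹ * p * g = (g⁻¹ * (p * q) * g) * (g⁻¹ * q * g)⁻¹ := by group
      rw [this]; exact Q.mul_mem h2 (Q.inv_mem hq)
    have h4 : ∀ w ∈ Q, g⁻¹ * w * g ∈ Q := by
      intro w hw
      obtain ⟨r, hr, rfl | rfl | rfl | rfl⟩ := h.cover w hw
      · exact hR1 _ hr
      · rw [hmul]; exact Q.mul_mem h3 (hR1 _ hr)
      · rw [hmul]; exact Q.mul_mem hq (hR1 _ hr)
      · rw [hmul]; exact Q.mul_mem h2 (hR1 _ hr)
    have h5 := conj_closed (R := Q) (g := g⁻¹) (fun r hr => by rw [inv_inv]; exact h4 r hr)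
    apply o.nN
    rw [Subgroup.mem_normalizer_iff]
    intro w
    refine ⟨fun hw => ?_, fun hw => ?_⟩
    · simpa using h5 w hw
    · have := h4 _ hw
      simpa [mul_assoc] using this
  have h2 : g⁻¹ * (p * q) * g ∉ Q := by
    rw [← h.yq, ← hy q]
    exact h1
  refine ⟨h1, h2, ?_⟩
  have : g⁻¹ * p * g = (g⁻¹ * (p * q) * g) * (g⁻¹ * q⁻¹ * g) := by group
  rw [this]
  have hQN : ∀ w ∈ Q, g⁻¹ * w * g ∈ normalizer (Q : Set D) := fun w hw => o.norm w (Subgroup.le_normalizer hw)
  refine o.mulQ _ (hQN _ (Q.mul_mem h.pQ h.qQ)) _ (hQN _ (Q.inv_mem h.qQ)) h2 ?_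
  intro hc
  apply h1
  have := Q.inv_mem hc
  simpa [mul_assoc] using this

theorem qpq (h : Str Q R y p q) : q * (p * q) = p := by
  have h1 : q * p = p * p * (p * q) := by
    rw [h.comm, ← mul_assoc, h.pppp, one_mul]
  calc q * (p * q) = (q * p) * q := by group
    _ = p * p * (p * (q * q)) := by rw [h1]; group
    _ = (p * p * (p * p)) * p := by rw [h.qq]; group
    _ = p := by rw [h.pppp, one_mul]

/-- the square of `u = q (g q g⁻¹)` -/
theorem u_sq (h : Str Q R y p q) {g : D} (o : Out Q g) (hb : g * q * g⁻¹ ∉ Q) :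
    (q * (g * q * g⁻¹)) * (q * (g * q * g⁻¹)) = p * (g * (p * p) * g⁻¹) ∨
      (q * (g * q * g⁻¹)) * (q * (g * q * g⁻¹)) = p * (p * p * (g * (p * p) * g⁻¹)) := by
  have hbN : g * q * g⁻¹ ∈ normalizer (Q : Set D) := o.norm' q (Subgroup.le_normalizer h.qQ)
  have hbb : (g * q * g⁻¹) * (g * q * g⁻¹) = g * (p * p) * g⁻¹ := by
    rw [← h.qq]; group
  have e : (q * (g * q * g⁻¹)) * (q * (g * q * g⁻¹)) =
      q * ((g * q * g⁻¹) * q * (g * q * g⁻¹)⁻¹) * ((g * q * g⁻¹) * (g * q * g⁻¹)) := by group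
  rw [e, hbb]
  rcases conj_out h o hbN hb with h1 | h1
  · left
    rw [h1, qpq h]
  · right
    rw [h1]
    calc q * (p * p * (p * q)) * (g * (p * p) * g⁻¹) = (q * (p * p)) * (p * q) * (g * (p * p) * g⁻¹) := by group
      _ = (p * p) * (q * (p * q)) * (g * (p * p) * g⁻¹) := by rw [h.qc _ h.pp]; group
      _ = _ := by rw [qpq h]; group

/-- the final contradiction in case (A) -/
theorem pow_eight {x u i s : D} (hx : x * x = u * i) (hc : u * i = i * u) (hu : u ^ 4 = s) (hi : i ^ 4 = 1) :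
    x ^ 8 = s := by
  have h1 : x ^ 8 = (x * x) ^ 4 := by
    rw [← pow_two, ← pow_mul]
  rw [h1, hx, (show Commute u i from hc).mul_pow, hu, hi, mul_one]

/-- case (A): `g` normalizes `R` -/
theorem case_A (h : Str Q R y p q) (hR : Nat.card R = 4) (hs : p * p ≠ 1) (hexp : ∀ x : D, x ^ 8 = 1) {g : D}
    (o : Out Q g) (hA : ∀ r ∈ R, g * r * g⁻¹ ∈ R) : False := by
  have hA' := conj_closed hA
  obtain ⟨i1, i2, i3⟩ := inter h o (fun r hr => h.RQ (hA' r hr))
  have hb : g * q * g⁻¹ ∉ Q := fun hc => i1 ((o.iff q).2 hc)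
  have hcomm : ∀ a ∈ R, ∀ b ∈ R, a * b = b * a := by
    haveI : Fact (Nat.Prime 2) := ⟨Nat.prime_two⟩
    have h1 := IsPGroup.isMulCommutative_of_card_eq_prime_sq (p := 2) (G := R) (by rw [hR]; norm_num)
    intro a ha b hb
    exact congrArg Subtype.val (h1.is_comm.comm (⟨a, ha⟩ : R) ⟨b, hb⟩)
  have hr4 : ∀ r ∈ R, r ^ 4 = 1 := by
    intro r hr
    have := pow_card_eq_one' (x := (⟨r, hr⟩ : R))
    rw [hR] at this
    exact congrArg Subtype.val this
  set u := q * (g * q * g⁻¹) with hu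
  set s1 := g * (p * p) * g⁻¹ with hs1
  have hs1R : s1 ∈ R := hA _ h.pp
  have hs1s : s1 * s1 = 1 := by
    have : s1 * s1 = g * (p * p * (p * p)) * g⁻¹ := by rw [hs1]; group
    rw [this, h.pppp]; group
  obtain ⟨t, htR, htt, hut⟩ : ∃ t ∈ R, t * t = 1 ∧ u * u = p * t := by
    rcases u_sq h o hb with h1 | h1
    · exact ⟨s1, hs1R, hs1s, h1⟩
    · refine ⟨p * p * s1, R.mul_mem h.pp hs1R, ?_, h1⟩
      calc p * p * s1 * (p * p * s1) = p * p * (s1 * (p * p)) * s1 := by group
        _ = (p * p * (p * p)) * (s1 * s1) := by rw [hcomm _ hs1R _ h.pp]; group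
        _ = 1 := by rw [h.pppp, hs1s, one_mul]
  have huR : ∀ r ∈ R, u * r = r * u := by
    intro r hr
    have h1 : (g * q * g⁻¹) * r = r * (g * q * g⁻¹) := by
      have h2 := h.qc _ (hA' r hr)
      calc (g * q * g⁻¹) * r = g * (q * (g⁻¹ * r * g)) * g⁻¹ := by group
        _ = r * (g * q * g⁻¹) := by rw [h2]; group
    rw [hu, mul_assoc, h1, ← mul_assoc, h.qc _ hr, mul_assoc]
  have hup : u * p = p * u := by
    have h1 : p = u * u * t := by rw [hut, mul_assoc, htt, mul_one]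
    have h2 : u * (u * u * t) = (u * u * t) * u := by
      rw [mul_assoc (u * u) t u, ← huR t htR]; group
    rw [← h1] at h2
    exact h2
  have hu4 : u ^ 4 = p * p := by
    have h1 : u ^ 4 = (u * u) * (u * u) := by
      rw [← pow_two, ← pow_two, ← pow_mul]
    rw [h1, hut]
    calc p * t * (p * t) = p * (t * p) * t := by group
      _ = p * p * (t * t) := by rw [← h.pc _ htR]; group
      _ = p * p := by rw [htt, mul_one]
  -- the intersection
  have hI : ∀ i ∈ Q, g⁻¹ * i * g ∈ Q → u * i = i * u ∧ i ^ 4 = 1 := by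
    intro i hi hi'
    obtain ⟨r, hr, hri⟩ := h.cover i hi
    have hrQ : g⁻¹ * r * g ∈ Q := h.RQ (hA' r hr)
    rcases hri with rfl | rfl | rfl | rfl
    · exact ⟨huR _ hr, hr4 _ hr⟩
    · refine ⟨by rw [← mul_assoc, hup, mul_assoc, huR _ hr, mul_assoc], ?_⟩
      rw [(show Commute p r from h.pc _ hr).mul_pow, hr4 _ hr, mul_one]
      rw [show p ^ 4 = p * p * (p * p) by rw [← pow_two, ← pow_two, ← pow_mul]]
      exact h.pppp
    · exfalso
      apply i1
      have : g⁻¹ * q * g = (g⁻¹ * (q * r) * g) * (g⁻¹ * r * g)⁻¹ := by group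
      rw [this]; exact Q.mul_mem hi' (Q.inv_mem hrQ)
    · exfalso
      apply i2
      have : g⁻¹ * (p * q) * g = (g⁻¹ * (p * q * r) * g) * (g⁻¹ * r * g)⁻¹ := by group
      rw [this]; exact Q.mul_mem hi' (Q.inv_mem hrQ)
  have huQ : u ∉ Q := fun hc => hb (by
    have := Q.mul_mem (Q.inv_mem h.qQ) hc
    rwa [hu, inv_mul_cancel_left] at this)
  have huQ1 : g⁻¹ * u * g ∉ Q := by
    intro hc
    apply i1
    have : g⁻¹ * q * g = (g⁻¹ * u * g) * q⁻¹ := by rw [hu]; group
    rw [this]; exact Q.mul_mem hc (Q.inv_mem h.qQ)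
  have huN : u ∈ normalizer (Q : Set D) :=
    mul_mem (Subgroup.le_normalizer h.qQ) (o.norm' q (Subgroup.le_normalizer h.qQ))
  have hgg : g⁻¹ * (g * g) * g = g * g := by group
  by_cases hg2 : g * g ∈ Q
  · obtain ⟨c1, c2⟩ := hI (g * g) hg2 (by rw [hgg]; exact hg2)
    have hx : (q * g) * (q * g) = u * (g * g) := by rw [hu]; group
    exact hs ((pow_eight hx c1 hu4 c2).symm.trans (hexp _))
  · have hui : u⁻¹ ∉ Q := fun hc => huQ (by simpa using Q.inv_mem hc)
    have h1 : u⁻¹ * (g * g) ∈ Q := o.mulQ _ (inv_mem huN) _ o.sq hui hg2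
    have h2 : g⁻¹ * (u⁻¹ * (g * g)) * g ∈ Q := by
      have e : g⁻¹ * (u⁻¹ * (g * g)) * g = (g⁻¹ * u⁻¹ * g) * (g * g) := by group
      rw [e]
      refine o.mulQ _ (o.norm _ (inv_mem huN)) _ o.sq (fun hc => huQ1 ?_) hg2
      have := Q.inv_mem hc
      simpa [mul_assoc] using this
    obtain ⟨c1, c2⟩ := hI _ h1 h2
    have hx : g * g = u * (u⁻¹ * (g * g)) := by group
    exact hs ((pow_eight hx c1 hu4 c2).symm.trans (hexp _))

theorem proper_card {K R : Subgroup D} (hle : K ≤ R) (hR : Nat.card R = 4) {r : D} (hr : r ∈ R) (hrK : r ∉ K) :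
    Nat.card K ≤ 2 := by
  have h1 : Nat.card K ∣ 2 ^ 2 := by
    have := Subgroup.card_dvd_of_le hle
    rw [hR] at this
    exact this
  obtain ⟨k, hk, hk2⟩ := (Nat.dvd_prime_pow Nat.prime_two).1 h1
  have h2 : Nat.card K ≠ 4 := fun h2 => hrK (by
    have := Subgroup.eq_of_le_of_card_ge hle (by omega)
    rw [this]; exact hr)
  interval_cases k <;> simp_all

theorem z_mem_R (h : Str Q R y p q) (hs : p * p ≠ 1) {z : D} (hz : z ∈ center D) (hzQ : z ∈ Q) : z ∈ R := by
  have hpq : p * q ≠ q * p := by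
    intro hc
    apply hs
    have := h.comm
    rw [hc] at this
    exact (mul_eq_right.1 this.symm)
  have hzz := Subgroup.mem_center_iff.1 hz
  obtain ⟨r, hr, rfl | rfl | rfl | rfl⟩ := h.cover z hzQ
  · exact hr
  · exfalso
    apply hpq
    have h1 := hzz q
    rw [mul_assoc p r q, ← h.qc _ hr, ← mul_assoc, ← mul_assoc] at h1
    exact (mul_right_cancel h1).symm
  · exfalso
    apply hpq
    have h1 := hzz p
    rw [mul_assoc q r p, ← h.pc _ hr, ← mul_assoc, ← mul_assoc] at h1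
    exact mul_right_cancel h1
  · exfalso
    apply hpq
    have h1 := hzz p
    have h2 : (p * (p * q)) * r = (p * (q * p)) * r := by
      calc (p * (p * q)) * r = p * (p * q * r) := by group
        _ = (p * q) * (r * p) := by rw [h1]; group
        _ = (p * (q * p)) * r := by rw [← h.pc _ hr]; group
    exact mul_left_cancel (mul_right_cancel h2)

/-- `gRg⁻¹ ≤ Q` -/
theorem sub_Q (h : Str Q R y p q) (hR : Nat.card R = 4) {z : D} (hz : z ∈ center D) (hz1 : z ≠ 1) (hzR : z ∈ R)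
    {g : D} (o : Out Q g) : ∀ r ∈ R, g * r * g⁻¹ ∈ Q := by
  intro r hr
  by_contra hcon
  let K : Subgroup D := R ⊓ Q.comap (MulAut.conj g).toMonoidHom
  have hK : ∀ x, x ∈ K ↔ x ∈ R ∧ g * x * g⁻¹ ∈ Q := fun x => Iff.rfl
  have hKc : Nat.card K ≤ 2 := proper_card (K := K) (R := R) inf_le_left hR hr (fun hc => hcon ((hK r).1 hc).2)
  have hzg : g * z * g⁻¹ = z := by
    rw [Subgroup.mem_center_iff.1 hz g]; group
  have hzK : z ∈ K := (hK z).2 ⟨hzR, by rw [hzg]; exact h.RQ hzR⟩
  have hrN : g * r * g⁻¹ ∈ normalizer (Q : Set D) := o.norm' r (Subgroup.le_normalizer (h.RQ hr))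
  have h1 := conj_out h o hrN hcon
  set c := (g * r * g⁻¹) * q * (g * r * g⁻¹)⁻¹ * q⁻¹ with hc
  have hc2 : c = p ∨ c = p * p * p := by
    rcases h1 with h1 | h1
    · left; rw [hc, h1]; group
    · right; rw [hc, h1]; group
  have hcK : g⁻¹ * c * g ∈ K := by
    refine (hK _).2 ⟨?_, ?_⟩
    · have e : g⁻¹ * c * g = r * ((g⁻¹ * q * g) * r⁻¹ * (g⁻¹ * q * g)⁻¹) := by rw [hc]; group
      rw [e]
      exact R.mul_mem hr (norm_R h hR o (o.norm q (Subgroup.le_normalizer h.qQ)) (R.inv_mem hr))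
    · have e : g * (g⁻¹ * c * g) * g⁻¹ = c := by group
      rw [e]
      rcases hc2 with h2 | h2
      · rw [h2]; exact h.pQ
      · rw [h2]; exact Q.mul_mem (Q.mul_mem h.pQ h.pQ) h.pQ
  have hcR : c ∈ R := by
    have e : c = g * (g⁻¹ * c * g) * g⁻¹ := by group
    rcases eq_of_card_le_two hKc hzK hz1 hcK with h2 | h2
    · rw [e, h2]; simp
    · rw [e, h2, hzg]; exact hzR
  apply h.pR
  rcases hc2 with h2 | h2
  · rwa [← h2]
  · have := R.mul_mem (R.inv_mem h.pp) hcR
    rw [h2] at this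
    have e : (p * p)⁻¹ * (p * p * p) = p := by group
    rwa [e] at this

/-- case (B): `g` does not normalize `R` -/
theorem case_B (h : Str Q R y p q) (hR : Nat.card R = 4) (hs : p * p ≠ 1) {z : D} (hz : z ∈ center D) (hz1 : z ≠ 1)
    (hzz : z * z = 1) (hzQ : z ∈ Q) {g : D} (o : Out Q g) (hB : ¬ ∀ r ∈ R, g * r * g⁻¹ ∈ R) : False := by
  have hzR := z_mem_R h hs hz hzQ
  have hzc := Subgroup.mem_center_iff.1 hz
  have hzg : ∀ g : D, g * z * g⁻¹ = z := fun g => by rw [hzc g]; group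
  have hpq : p * q ≠ q * p := by
    intro hc
    apply hs
    have := h.comm
    rw [hc] at this
    exact (mul_eq_right.1 this.symm)
  have hcomm : ∀ a ∈ R, ∀ b ∈ R, a * b = b * a := by
    haveI : Fact (Nat.Prime 2) := ⟨Nat.prime_two⟩
    have h1 := IsPGroup.isMulCommutative_of_card_eq_prime_sq (p := 2) (G := R) (by rw [hR]; norm_num)
    intro a ha b hb
    exact congrArg Subtype.val (h1.is_comm.comm (⟨a, ha⟩ : R) ⟨b, hb⟩)
  have hB' : ¬ ∀ r ∈ R, g⁻¹ * r * g ∈ R := by
    intro hc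
    apply hB
    have := conj_closed (R := R) (g := g⁻¹) (fun r hr => by rw [inv_inv]; exact hc r hr)
    intro r hr
    simpa using this r hr
  have hQ1 : ∀ r ∈ R, g * r * g⁻¹ ∈ Q := sub_Q h hR hz hz1 hzR o
  have hQ2 : ∀ r ∈ R, g⁻¹ * r * g ∈ Q := by
    intro r hr
    simpa using sub_Q h hR hz hz1 hzR o.inv r hr
  obtain ⟨i1, i2, i3⟩ := inter h o hQ2
  have hb : g * q * g⁻¹ ∉ Q := fun hc => i1 ((o.iff q).2 hc)
  -- `R ∩ R₁ = {1, z}`
  push Not at hB hB'
  obtain ⟨ρ, hρ, hρR⟩ := hB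
  obtain ⟨r1, hr1, hr1R⟩ := hB'
  have hint : ∀ x ∈ R, g⁻¹ * x * g ∈ R → x = 1 ∨ x = z := by
    intro x hx hx'
    let K : Subgroup D := R ⊓ R.comap (MulAut.conj g⁻¹).toMonoidHom
    have hK : ∀ x, x ∈ K ↔ x ∈ R ∧ g⁻¹ * x * g ∈ R := fun x => by
      change x ∈ R ∧ g⁻¹ * x * g⁻¹⁻¹ ∈ R ↔ _
      rw [inv_inv]
    have hKc : Nat.card K ≤ 2 := proper_card (K := K) (R := R) inf_le_left hR hr1 (fun hc => hr1R ((hK r1).1 hc).2)
    refine eq_of_card_le_two hKc ((hK z).2 ⟨hzR, ?_⟩) hz1 ((hK x).2 ⟨hx, hx'⟩)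
    have := hzg g⁻¹
    rw [inv_inv] at this
    rw [this]; exact hzR
  -- elements of `Q ∩ Q₁` outside `R`
  have hI : ∀ i ∈ Q, g⁻¹ * i * g ∈ Q → i ∉ R → ∃ r ∈ R, i = p * r := by
    intro i hi hi' hiR
    obtain ⟨r, hr, hri⟩ := h.cover i hi
    have hrQ : g⁻¹ * r * g ∈ Q := hQ2 r hr
    rcases hri with rfl | rfl | rfl | rfl
    · exact absurd hr hiR
    · exact ⟨r, hr, rfl⟩
    · exfalso
      apply i1
      have : g⁻¹ * q * g = (g⁻¹ * (q * r) * g) * (g⁻¹ * r * g)⁻¹ := by group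
      rw [this]; exact Q.mul_mem hi' (Q.inv_mem hrQ)
    · exfalso
      apply i2
      have : g⁻¹ * (p * q) * g = (g⁻¹ * (p * q * r) * g) * (g⁻¹ * r * g)⁻¹ := by group
      rw [this]; exact Q.mul_mem hi' (Q.inv_mem hrQ)
  have hs1R' : g⁻¹ * (g * (p * p) * g⁻¹) * g ∈ R := by
    have : g⁻¹ * (g * (p * p) * g⁻¹) * g = p * p := by group
    rw [this]; exact h.pp
  -- `s₁ = z`
  have hs1 : g * (p * p) * g⁻¹ = z := by
    obtain ⟨r'', hr'', e1⟩ := hI (g⁻¹ * r1 * g) (hQ2 r1 hr1) (by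
      rw [o.iff]
      have : g * (g⁻¹ * r1 * g) * g⁻¹ = r1 := by group
      rw [this]; exact h.RQ hr1) hr1R
    have e2 : (g⁻¹ * r1 * g) * q = (p * p) * (q * (g⁻¹ * r1 * g)) := by
      rw [e1, mul_assoc p r'' q, ← h.qc _ hr'', ← mul_assoc p q r'', h.comm]; group
    have e3 : g * (p * p) * g⁻¹ = r1 * ((g * q * g⁻¹) * r1⁻¹ * (g * q * g⁻¹)⁻¹) := by
      have : p * p = ((g⁻¹ * r1 * g) * q) * (q * (g⁻¹ * r1 * g))⁻¹ := by rw [e2]; group
      rw [this]; group
    have h1 : g * (p * p) * g⁻¹ ∈ R := by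
      rw [e3]
      exact R.mul_mem hr1 (norm_R h hR o (o.norm' q (Subgroup.le_normalizer h.qQ)) (R.inv_mem hr1))
    rcases hint _ h1 hs1R' with h2 | h2
    · exfalso
      apply hs
      have := congrArg (fun t => g⁻¹ * t * g) h2
      simpa [mul_assoc] using this
    · exact h2
  have hsz : p * p = z := by
    have := congrArg (fun t => g⁻¹ * t * g) hs1
    have e : g⁻¹ * z * g = z := by
      have := hzg g⁻¹
      rwa [inv_inv] at this
    simpa [mul_assoc, e] using this
  -- `p ∉ R₁`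
  have hp1 : g⁻¹ * p * g ∉ R := by
    intro hc
    have huu : ∃ c : D, (c = 1 ∨ c = z) ∧ (q * (g * q * g⁻¹)) * (q * (g * q * g⁻¹)) = p * c := by
      rcases u_sq h o hb with h1 | h1
      · exact ⟨z, Or.inr rfl, by rw [h1, hs1]⟩
      · refine ⟨1, Or.inl rfl, ?_⟩
        rw [h1, hs1, hsz, hzz]
    obtain ⟨c, hc1, huu⟩ := huu
    have hcc : ∀ x : D, x * c = c * x := by
      rcases hc1 with rfl | rfl
      · intro x; rw [mul_one, one_mul]
      · exact hzc
    have hpb : p * (g * q * g⁻¹) = (g * q * g⁻¹) * p := by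
      have h1 := h.qc _ hc
      calc p * (g * q * g⁻¹) = g * ((g⁻¹ * p * g) * q) * g⁻¹ := by group
        _ = g * (q * (g⁻¹ * p * g)) * g⁻¹ := by rw [h1]
        _ = (g * q * g⁻¹) * p := by group
    have hpu : (q * (g * q * g⁻¹)) * p = p * (q * (g * q * g⁻¹)) := by
      have h1 : (q * (g * q * g⁻¹)) * (p * c) = (p * c) * (q * (g * q * g⁻¹)) := by
        rw [← huu]; group
      rw [← mul_assoc, mul_assoc p c, ← hcc (q * (g * q * g⁻¹)), ← mul_assoc p] at h1
      exact mul_right_cancel h1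
    apply hpq
    have h2 : (p * q) * (g * q * g⁻¹) = (q * p) * (g * q * g⁻¹) := by
      calc (p * q) * (g * q * g⁻¹) = p * (q * (g * q * g⁻¹)) := by group
        _ = q * ((g * q * g⁻¹) * p) := by rw [← hpu]; group
        _ = (q * p) * (g * q * g⁻¹) := by rw [← hpb]; group
    exact mul_right_cancel h2
  -- the end
  obtain ⟨r0, hr0, e0⟩ := hI (g * ρ * g⁻¹) (hQ1 ρ hρ) (by
    have : g⁻¹ * (g * ρ * g⁻¹) * g = ρ := by group
    rw [this]; exact h.RQ hρ) hρR
  let K : Subgroup D := zpowers z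
  have hK : ∀ x, x ∈ K ↔ x = 1 ∨ x = z := by
    intro x
    constructor
    · intro hx
      obtain ⟨k, hk⟩ := Subgroup.mem_zpowers_iff.1 hx
      rw [← hk]
      have hz2 : z ^ (2 : ℤ) = 1 := by
        rw [show (2 : ℤ) = ((2 : ℕ) : ℤ) from rfl, zpow_natCast, pow_two, hzz]
      rcases Int.even_or_odd' k with ⟨m, rfl | rfl⟩
      · left; rw [zpow_mul, hz2, one_zpow]
      · right; rw [zpow_add, zpow_mul, hz2, one_zpow, one_mul, zpow_one]
    · intro hx
      rcases hx with hx | hx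
      · rw [hx]; exact K.one_mem
      · rw [hx]; exact Subgroup.mem_zpowers z
  have hKR : K ≤ R := by
    intro x hx
    rcases (hK x).1 hx with h3 | h3
    · rw [h3]; exact R.one_mem
    · rw [h3]; exact hzR
  have hKc : Nat.card K = 2 := by
    rw [Nat.card_zpowers]
    exact orderOf_eq_prime (p := 2) (by rw [pow_two, hzz]) hz1
  have hr0K : r0 ∉ K := by
    intro hc
    apply hp1
    have h1 : p = (g * ρ * g⁻¹) * r0⁻¹ := by rw [e0]; group
    have h2 : g⁻¹ * r0⁻¹ * g = r0⁻¹ := by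
      rcases (hK _).1 hc with h3 | h3
      · rw [h3]; simp
      · have := hzg g⁻¹
        rw [inv_inv] at this
        rw [h3]
        have h4 := congrArg (fun t => t⁻¹) this
        simpa [mul_assoc] using h4
    have h3 : g⁻¹ * p * g = ρ * (g⁻¹ * r0⁻¹ * g) := by
      conv_lhs => rw [h1]
      group
    rw [h3, h2]
    exact R.mul_mem hρ (R.inv_mem hr0)
  have hρK : ρ ∉ K := by
    intro hc
    apply hρR
    rcases (hK _).1 hc with h3 | h3
    · rw [h3]; simp
    · rw [h3, hzg]; exact hzR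
  have h5 : r0⁻¹ * ρ ∈ K := mul_mem_of_half hKR (by omega) (R.inv_mem hr0) hρ
    (fun hc => hr0K (by simpa using K.inv_mem hc)) hρK
  have h6 : r0 * r0 ∈ K := mul_mem_of_half hKR (by omega) hr0 hr0 hr0K hr0K
  have h7 : ρ * ρ = r0 * r0 := by
    rcases (hK _).1 h5 with h8 | h8
    · have : ρ = r0 := (inv_mul_eq_one.1 h8).symm
      rw [this]
    · have : ρ = r0 * z := by rw [← h8]; group
      rw [this]
      calc r0 * z * (r0 * z) = r0 * (z * r0) * z := by group
        _ = r0 * r0 * (z * z) := by rw [← hzc r0]; group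
        _ = r0 * r0 := by rw [hzz, mul_one]
  have h8 : g * (ρ * ρ) * g⁻¹ = ρ * ρ := by
    rw [h7]
    rcases (hK _).1 h6 with h9 | h9
    · rw [h9]; group
    · rw [h9, hzg]
  have h9 : (g * ρ * g⁻¹) * (g * ρ * g⁻¹) = z * (r0 * r0) := by
    rw [e0, ← hsz]
    calc p * r0 * (p * r0) = p * (r0 * p) * r0 := by group
      _ = p * p * (r0 * r0) := by rw [← h.pc _ hr0]; group
  have h10 : (g * ρ * g⁻¹) * (g * ρ * g⁻¹) = g * (ρ * ρ) * g⁻¹ := by group
  rw [h10, h8, h7] at h9
  exact hz1 (mul_eq_right.1 h9.symm)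

end six

/-- **S4543 T6**: `|Q| = 16`, `Q` nonabelian. -/
theorem T6 {D : Type*} [Group D] [Finite D] (hG : Good D) {Q R : Subgroup D} {y p q : D}
    (h : Str Q R y p q) (hQ : Nat.card Q = 16) (hN : Nat.card (normalizer (Q : Set D)) = 32)
    (hs : p * p ≠ 1) {z : D} (hz : z ∈ center D) (hz1 : z ≠ 1) (hzQ : z ∈ Q) : False := by
  have hR := card_R h hQ
  obtain ⟨g, hg⟩ : ∃ g : D, g ∉ normalizer (Q : Set D) := by
    by_contra hcon
    push Not at hcon
    have h1 : normalizer (Q : Set D) = ⊤ := eq_top_iff.2 fun x _ => hcon x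
    rw [h1, Subgroup.card_top, hG.card] at hN
    omega
  have o := Out.of hG.card hQ hN hg
  by_cases hA : ∀ r ∈ R, g * r * g⁻¹ ∈ R
  · exact case_A h hR hs hG.exp o hA
  · exact case_B h hR hs hz hz1 (hG.centre z hz) hzQ o hA

end Cfsg.Agent.H807.S45
end

-- part: H807/S45/Fpf
section
/-!
# Groups of order 16 with a fixed point free automorphism of order three
-/

set_option autoImplicit false
set_option linter.unusedSectionVars false

namespace Cfsg.Agent.H807.S45

open Subgroup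

section fpf

variable {B : Type*} [Group B] [Finite B] {f : B →* B} (h3 : ∀ b, f (f (f b)) = b) (h1 : ∀ b, f b = b → b = 1)

include h3 h1

theorem norm1 (b : B) : b * f b * f (f b) = 1 := by
  have hi : Function.Injective (fun b : B => b⁻¹ * f b) := by
    intro x w hxw
    have h2 : x⁻¹ * f x = w⁻¹ * f w := hxw
    have h4 : f (x * w⁻¹) = x * w⁻¹ := by
      rw [map_mul, map_inv]
      calc f x * (f w)⁻¹ = x * (x⁻¹ * f x) * (f w)⁻¹ := by group
        _ = x * w⁻¹ := by rw [h2]; group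
    have h5 := h1 _ h4
    exact mul_inv_eq_one.1 h5
  obtain ⟨w, hw⟩ := (Finite.injective_iff_surjective.1 hi) b
  have hw' : w⁻¹ * f w = b := hw
  rw [← hw', map_mul, map_inv, map_mul, map_inv, h3]
  group

theorem norm2 (b : B) : b * f (f b) * f b = 1 := by
  have hi : Function.Injective (fun b : B => b⁻¹ * f (f b)) := by
    intro x w hxw
    have h2 : x⁻¹ * f (f x) = w⁻¹ * f (f w) := hxw
    have h4 : f (f (x * w⁻¹)) = x * w⁻¹ := by
      rw [map_mul, map_inv, map_mul, map_inv]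
      calc f (f x) * (f (f w))⁻¹ = x * (x⁻¹ * f (f x)) * (f (f w))⁻¹ := by group
        _ = x * w⁻¹ := by rw [h2]; group
    have h4' : f (x * w⁻¹) = x * w⁻¹ := by
      have h6 := h3 (x * w⁻¹)
      rwa [h4] at h6
    have h5 := h1 _ h4'
    exact mul_inv_eq_one.1 h5
  obtain ⟨w, hw⟩ := (Finite.injective_iff_surjective.1 hi) b
  have hw' : w⁻¹ * f (f w) = b := hw
  rw [← hw']
  simp only [map_mul, map_inv, h3]
  group

theorem comm_f (b : B) : b * f b = f b * b := by
  have hinj : Function.Injective f := fun x w hxw => by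
    rw [← h3 x, ← h3 w, hxw]
  apply hinj
  rw [map_mul, map_mul]
  have e1 := norm1 h3 h1 b
  have e2 := norm2 h3 h1 b
  have e3 : f b * f (f b) = b⁻¹ := by
    rw [mul_assoc] at e1
    exact (inv_eq_of_mul_eq_one_right e1).symm
  have e4 : f (f b) * f b = b⁻¹ := by
    rw [mul_assoc] at e2
    exact (inv_eq_of_mul_eq_one_right e2).symm
  rw [e3, e4]

/-- invariant subgroups do not have order two -/
theorem card_ne_two {H : Subgroup B} (hH : ∀ h ∈ H, f h ∈ H) : Nat.card H ≠ 2 := by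
  intro hc
  obtain ⟨t, ht, ht1⟩ : ∃ t ∈ H, t ≠ 1 := by
    by_contra hcon
    push Not at hcon
    have : H = ⊥ := (Subgroup.eq_bot_iff_forall H).2 hcon
    rw [this, Subgroup.card_bot] at hc
    omega
  rcases eq_of_card_le_two hc.le ht ht1 (hH t ht) with h | h
  · apply ht1
    rw [← h3 t, h, map_one, map_one]
  · exact ht1 (h1 t h)

/-- nontrivial invariant subgroups of a 2-group have order at least four -/
theorem four_le {H : Subgroup B} (hB : Nat.card B = 16) (hH : ∀ h ∈ H, f h ∈ H) (hne : H ≠ ⊥) :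
    4 ≤ Nat.card H := by
  have h2 : Nat.card H ∣ 2 ^ 4 := by
    have := Subgroup.card_subgroup_dvd_card H
    rw [hB] at this
    exact this
  obtain ⟨k, hk, hk2⟩ := (Nat.dvd_prime_pow Nat.prime_two).1 h2
  have h4 := card_ne_two h3 h1 hH
  have h5 : Nat.card H ≠ 1 := fun h => hne (Subgroup.card_eq_one.1 h)
  interval_cases k <;> omega

theorem fpf_comm (hB : Nat.card B = 16) (b c : B) : b * c = c * b := by
  have hC : ∀ x : B, x ∈ center B := by
    intro X
    by_contra hX
    have hBp : IsPGroup 2 B := IsPGroup.of_card (n := 4) (by rw [hB]; norm_num)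
    haveI : Fact (Nat.Prime 2) := ⟨Nat.prime_two⟩
    haveI : Nontrivial B := Finite.one_lt_card_iff_nontrivial.1 (by omega)
    have hCn : center B ≠ ⊥ := by
      haveI := hBp.center_nontrivial
      exact (Subgroup.nontrivial_iff_ne_bot _).1 inferInstance
    have hCf : ∀ c ∈ center B, f c ∈ center B := by
      intro c hc
      rw [Subgroup.mem_center_iff] at hc ⊢
      intro b
      have h4 := congrArg f (hc (f (f b)))
      rwa [map_mul, map_mul, h3] at h4
    have hC4 := four_le h3 h1 hB hCf hCn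
    let K := Subgroup.centralizer ({X} : Set B)
    have hmK : ∀ w, w ∈ K ↔ X * w = w * X := by
      intro w
      rw [Subgroup.mem_centralizer_iff]
      simp
    have hCK : center B ≤ K := by
      intro c hc
      rw [hmK]
      exact Subgroup.mem_center_iff.1 hc X
    have hKT : K ≠ ⊤ := by
      intro h
      apply hX
      rw [Subgroup.mem_center_iff]
      intro g
      have : g ∈ K := by rw [h]; exact Subgroup.mem_top g
      exact ((hmK g).1 this).symm
    have hK1 : Nat.card K ∣ 2 ^ 4 := by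
      have := Subgroup.card_subgroup_dvd_card K
      rw [hB] at this
      exact this
    have hK2 : Nat.card K ≠ 16 := fun h => hKT ((Subgroup.card_eq_iff_eq_top K).1 (by rw [h, hB]))
    have hK3 : Nat.card (center B) ∣ Nat.card K := Subgroup.card_dvd_of_le hCK
    have hXK : X ∈ K := (hmK X).2 rfl
    have hK4 : Nat.card (center B) ≠ Nat.card K := fun h => hX (by
      rw [Subgroup.eq_of_le_of_card_ge hCK h.ge]; exact hXK)
    have hK5 : Nat.card K = 2 * Nat.card (center B) := by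
      obtain ⟨k, hk, hk2⟩ := (Nat.dvd_prime_pow Nat.prime_two).1 hK1
      have h8 : Nat.card (center B) ≤ Nat.card K := Nat.le_of_dvd Nat.card_pos hK3
      obtain ⟨m, hm⟩ := hK3
      have h6 : k = 3 := by
        have : Nat.card K ≠ 1 ∧ Nat.card K ≠ 2 ∧ Nat.card K ≠ 4 := ⟨by omega, by omega, by omega⟩
        interval_cases k <;> omega
      subst h6
      have h7 : Nat.card (center B) * m = 8 := by omega
      have h9 : m ≤ 2 := by nlinarith
      interval_cases m <;> omega
    have hXi : X⁻¹ ∉ center B := fun h => hX (by simpa using inv_mem h)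
    have hfX : f X ∉ center B := by
      intro h
      have := hCf _ (hCf _ h)
      rw [h3] at this
      exact hX this
    have hc1 : X⁻¹ * f X ∈ center B :=
      mul_mem_of_half hCK hK5 (K.inv_mem hXK) ((hmK _).2 (comm_f h3 h1 X)) hXi hfX
    obtain ⟨c, hc⟩ : ∃ c, c = X⁻¹ * f X := ⟨_, rfl⟩
    rw [← hc] at hc1
    have hcc := Subgroup.mem_center_iff.1 hc1
    have hfX2 : f X = X * c := by rw [hc]; group
    have hn := norm1 h3 h1 X
    have h6 : X ^ 3 * (c * c * f c) = 1 := by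
      rw [hfX2, map_mul, hfX2] at hn
      calc X ^ 3 * (c * c * f c) = X * X * (X * c) * c * f c := by
            simp only [pow_succ, pow_zero, one_mul, mul_assoc]
        _ = X * X * (c * X) * c * f c := by rw [hcc X]
        _ = X * (X * c) * (X * c * f c) := by group
        _ = 1 := hn
    have h7 : X ^ 3 ∈ center B := by
      rw [mul_eq_one_iff_eq_inv.1 h6]
      exact inv_mem (mul_mem (mul_mem hc1 hc1) (hCf c hc1))
    have h8 : X ^ 16 = 1 := by
      rw [← hB]; exact pow_card_eq_one'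
    have h9 : X = X ^ 16 * (X ^ 3) ^ (-5 : ℤ) := by group
    apply hX
    rw [h9, h8, one_mul]
    exact zpow_mem h7 _
  exact Subgroup.mem_center_iff.1 (hC c) b

/-- The structure of a group of order 16, not elementary abelian, with a fixed point free automorphism of order 3. -/
theorem fpf16 (hB : Nat.card B = 16) (hx : ∃ b : B, b * b ≠ 1) :
    (∀ b : B, b * b = 1 ↔ ∃ c, b = c * c) ∧ Nat.card {b : B // b * b = 1} = 4 := by
  have hcomm := fpf_comm h3 h1 hB
  let sq : B →* B := MonoidHom.mk' (fun b => b * b) (fun b c => by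
    change b * c * (b * c) = b * b * (c * c)
    rw [mul_assoc, ← mul_assoc c, hcomm c b]; group)
  have hsq : ∀ b, sq b = b * b := fun b => rfl
  have hK : ∀ b, b ∈ sq.ker ↔ b * b = 1 := fun b => Iff.rfl
  have hS : ∀ b, b ∈ sq.range ↔ ∃ c, c * c = b := fun b => Iff.rfl
  have hcard : Nat.card sq.ker * Nat.card sq.range = 16 := by
    rw [← Subgroup.index_ker, Subgroup.card_mul_index, hB]
  have hKf : ∀ h ∈ sq.ker, f h ∈ sq.ker := by
    intro b hb
    rw [hK] at hb ⊢
    rw [← map_mul, hb, map_one]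
  have hSf : ∀ h ∈ sq.range, f h ∈ sq.range := by
    rintro _ ⟨c, rfl⟩
    exact ⟨f c, by rw [hsq, hsq, map_mul]⟩
  have hSn : sq.range ≠ ⊥ := by
    obtain ⟨b, hb⟩ := hx
    intro h
    apply hb
    have : sq b ∈ sq.range := ⟨b, rfl⟩
    rw [h] at this
    exact this
  have hS4 := four_le h3 h1 hB hSf hSn
  have hBp : IsPGroup 2 B := IsPGroup.of_card (n := 4) (by rw [hB]; norm_num)
  haveI : Fact (Nat.Prime 2) := ⟨Nat.prime_two⟩
  -- involutions in `S`
  have hI : sq.range ⊓ sq.ker ≠ ⊥ := by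
    have h2 : 2 ∣ Nat.card sq.range := by
      have h4 : Nat.card sq.range ∣ 2 ^ 4 := ⟨Nat.card sq.ker, by rw [mul_comm, hcard]; norm_num⟩
      obtain ⟨k, hk, hk2⟩ := (Nat.dvd_prime_pow Nat.prime_two).1 h4
      rw [hk2]
      refine dvd_pow_self 2 ?_
      rintro rfl
      omega
    obtain ⟨⟨t, ht⟩, ht2⟩ := exists_prime_orderOf_dvd_card' 2 h2
    have ht3 : orderOf t = 2 := by rw [← ht2]; exact (Subgroup.orderOf_mk t ht).symm
    intro hbot
    have ht4 : t ∈ sq.range ⊓ sq.ker := by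
      refine ⟨ht, ?_⟩
      change t * t = 1
      have := pow_orderOf_eq_one t
      rw [ht3, pow_two] at this
      exact this
    rw [hbot] at ht4
    have : t = 1 := ht4
    rw [this, orderOf_one] at ht3
    omega
  have hI4 : 4 ≤ Nat.card (sq.range ⊓ sq.ker : Subgroup B) :=
    four_le h3 h1 hB (fun b hb => ⟨hSf b hb.1, hKf b hb.2⟩) hI
  have hK4 : 4 ≤ Nat.card sq.ker := hI4.trans (Subgroup.card_le_of_le inf_le_right)
  have hKc : Nat.card sq.ker = 4 := by nlinarith
  have hSc : Nat.card sq.range = 4 := by nlinarith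
  have e1 : sq.range ⊓ sq.ker = sq.ker := Subgroup.eq_of_le_of_card_ge inf_le_right (by omega)
  have e2 : sq.range ⊓ sq.ker = sq.range := Subgroup.eq_of_le_of_card_ge inf_le_left (by omega)
  have e3 : sq.range = sq.ker := e2.symm.trans e1
  refine ⟨fun b => ?_, ?_⟩
  · rw [← hK, ← e3, hS]
    exact ⟨fun ⟨c, hc⟩ => ⟨c, hc.symm⟩, fun ⟨c, hc⟩ => ⟨c, hc.symm⟩⟩
  · rw [← hKc]
    rfl

end fpf

end Cfsg.Agent.H807.S45
end

-- part: H807/S45/TSevenA
section
/-!
# S4543 T7a (`|Q| = 32`, `C_Q(a) = ⟨z⟩`)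
-/

set_option autoImplicit false
set_option linter.unusedSectionVars false

namespace Cfsg.Agent.H807.S45

open Subgroup Cfsg.Agent.H617.Two

section gen

variable {D : Type*} [Group D] [Finite D]

theorem three_gen_aux {Q : Subgroup D} (hQ : Q.index = 2) {α β : D} (hα : α ∉ Q) (hβ : β ∈ Q)
    (hgen : closure ({α, β} : Set D) = ⊤) : closure ({β, α * β * α⁻¹, α * α} : Set D) = Q := by
  set T := closure ({β, α * β * α⁻¹, α * α} : Set D) with hT
  have hβT : β ∈ T := Subgroup.subset_closure (by simp)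
  have hβ'T : α * β * α⁻¹ ∈ T := Subgroup.subset_closure (by simp)
  have hααT : α * α ∈ T := Subgroup.subset_closure (by simp)
  have hTQ : T ≤ Q := by
    rw [hT, Subgroup.closure_le]
    rintro x (rfl | rfl | rfl)
    · exact hβ
    · exact (Subgroup.normal_of_index_eq_two hQ).conj_mem _ hβ _
    · exact (Subgroup.mul_mem_iff_of_index_two hQ).2 Iff.rfl
  -- `T` is normalized by `α`
  have hαT : ∀ x ∈ T, α * x * α⁻¹ ∈ T := by
    intro x hx
    have h1 : T.map (MulAut.conj α).toMonoidHom ≤ T := by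
      rw [hT, MonoidHom.map_closure, Subgroup.closure_le]
      rintro _ ⟨w, (rfl | rfl | rfl), rfl⟩
      · exact hβ'T
      · change α * (α * β * α⁻¹) * α⁻¹ ∈ T
        have : α * (α * β * α⁻¹) * α⁻¹ = (α * α) * β * (α * α)⁻¹ := by group
        rw [this]
        exact T.mul_mem (T.mul_mem hααT hβT) (T.inv_mem hααT)
      · change α * (α * α) * α⁻¹ ∈ T
        have : α * (α * α) * α⁻¹ = α * α := by group
        rw [this]; exact hααT
    exact h1 ⟨x, hx, rfl⟩
  have hαT' := conj_closed hαT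
  have key : ∀ x : D, x ∈ T ∨ α⁻¹ * x ∈ T := by
    intro x
    have hx : x ∈ closure ({α, β} : Set D) := by rw [hgen]; exact Subgroup.mem_top x
    induction hx using Subgroup.closure_induction with
    | mem x hx =>
      rcases hx with rfl | rfl
      · right; rw [inv_mul_cancel]; exact T.one_mem
      · left; exact hβT
    | one => left; exact T.one_mem
    | mul x w _ _ hx hw =>
      rcases hx with hx | hx <;> rcases hw with hw | hw
      · left; exact T.mul_mem hx hw
      · right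
        have e : α⁻¹ * (x * w) = (α⁻¹ * x * α) * (α⁻¹ * w) := by group
        rw [e]; exact T.mul_mem (hαT' x hx) hw
      · right
        have e : α⁻¹ * (x * w) = (α⁻¹ * x) * w := by group
        rw [e]; exact T.mul_mem hx hw
      · left
        have e : x * w = (α * α) * (α⁻¹ * (α⁻¹ * x) * α) * (α⁻¹ * w) := by group
        rw [e]; exact T.mul_mem (T.mul_mem hααT (hαT' _ hx)) hw
    | inv x _ hx =>
      rcases hx with hx | hx
      · left; exact T.inv_mem hx
      · right
        have e : α⁻¹ * x⁻¹ = (α * α)⁻¹ * (α * (α⁻¹ * x)⁻¹ * α⁻¹) := by group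
        rw [e]; exact T.mul_mem (T.inv_mem hααT) (hαT _ (T.inv_mem hx))
  refine le_antisymm hTQ fun x hx => ?_
  rcases key x with h1 | h1
  · exact h1
  · exfalso
    apply hα
    have h2 := Q.mul_mem hx (Q.inv_mem (hTQ h1))
    have e : x * (α⁻¹ * x)⁻¹ = α := by group
    rwa [e] at h2

/-- subgroups of index two of a 2-generated group are 3-generated -/
theorem three_gen {Q : Subgroup D} (hQ : Q.index = 2) (hgen : ∃ a b : D, closure ({a, b} : Set D) = ⊤) :
    ∃ b1 b2 b3 : D, closure ({b1, b2, b3} : Set D) = Q := by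
  obtain ⟨α, β, hg⟩ := hgen
  by_cases hα : α ∈ Q
  · by_cases hβ : β ∈ Q
    · exfalso
      have h1 : closure ({α, β} : Set D) ≤ Q := by
        rw [Subgroup.closure_le]
        rintro x (rfl | rfl)
        · exact hα
        · exact hβ
      rw [hg, top_le_iff] at h1
      rw [h1, Subgroup.index_top] at hQ
      omega
    · rw [Set.pair_comm] at hg
      exact ⟨_, _, _, three_gen_aux hQ hβ hα hg⟩
  · by_cases hβ : β ∈ Q
    · exact ⟨_, _, _, three_gen_aux hQ hα hβ hg⟩
    · refine ⟨_, _, _, three_gen_aux hQ hα (β := α * β)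
        ((Subgroup.mul_mem_iff_of_index_two hQ).2 ⟨fun h => absurd h hα, fun h => absurd h hβ⟩) ?_⟩
      rw [← top_le_iff, ← hg, Subgroup.closure_le]
      rintro x (rfl | rfl)
      · exact Subgroup.subset_closure (by simp)
      · have h1 : α ∈ closure ({α, α * x} : Set D) := Subgroup.subset_closure (by simp)
        have h2 : α * x ∈ closure ({α, α * x} : Set D) := Subgroup.subset_closure (by simp)
        have h3 := mul_mem (inv_mem h1) h2
        rwa [inv_mul_cancel_left] at h3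

/-- 3-generated groups of exponent two -/
theorem card_le_eight {B : Type*} [Group B] [Finite B] {b1 b2 b3 : B} (hg : closure ({b1, b2, b3} : Set B) = ⊤)
    (h2 : ∀ b : B, b * b = 1) : Nat.card B ≤ 8 := by
  classical
  letI : CommGroup B := { (inferInstance : Group B) with
    mul_comm := fun a b => by
      have hi : ∀ c : B, c⁻¹ = c := fun c => inv_eq_of_mul_eq_one_right (h2 c)
      rw [← hi (a * b), mul_inv_rev, hi, hi] }
  have h3 := card_dvd_exponent_pow_rank' B (n := 2) (fun g => by rw [pow_two]; exact h2 g)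
  have h4 : Group.rank B ≤ 3 := by
    have := Group.rank_le (S := ({b1, b2, b3} : Finset B)) (by
      rw [← hg]; simp)
    exact this.trans Finset.card_le_three
  calc Nat.card B ≤ 2 ^ Group.rank B := Nat.le_of_dvd (by positivity) h3
    _ ≤ 2 ^ 3 := Nat.pow_le_pow_right (by norm_num) h4

end gen

theorem two_mul_card_le {G : Type*} [Group G] [Finite G] {H K : Subgroup G} (hle : H ≤ K) (hne : H ≠ K) :
    2 * Nat.card H ≤ Nat.card K := by
  obtain ⟨k, hk⟩ := Subgroup.card_dvd_of_le hle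
  have h1 : 0 < Nat.card H := Nat.card_pos
  have h2 : 0 < Nat.card K := Nat.card_pos
  have h3 : k ≠ 0 := by rintro rfl; omega
  have h4 : k ≠ 1 := by
    rintro rfl
    exact hne (Subgroup.eq_of_le_of_card_ge hle (by omega))
  have h5 : 2 ≤ k := by omega
  rw [hk]
  nlinarith

/-- **S4543 T7a**: `|Q| = 32`, `C_Q(a) = ⟨z⟩`. -/
theorem T7a {D : Type*} [Group D] [Finite D] (hG : Good D) {Q : Subgroup D} {z y : D} {a : D → D}
    (h : Loc Q z a y) (hQ : Nat.card Q = 32) (hR : ∀ x ∈ Q, a x = x → x = 1 ∨ x = z) :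
    Last Q z ∧ ∃ w ∈ center D, w ≠ 1 ∧ w ≠ z := by
  have hzc := Subgroup.mem_center_iff.1 h.zc
  have hzQ : z ∈ Q := h.cent z (fun q _ => (hzc q).symm)
  have hzz : z * z = 1 := hG.centre z h.zc
  have hQi : Q.index = 2 := by
    have := Subgroup.card_mul_index Q
    rw [hQ, hG.card] at this
    omega
  let z' : Q := ⟨z, hzQ⟩
  have hz'1 : z' ≠ 1 := fun hc => h.z1 (congrArg Subtype.val hc)
  have hz'z' : z' * z' = 1 := Subtype.ext hzz
  have hz'c : ∀ x : Q, x * z' = z' * x := fun x => Subtype.ext (hzc x)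
  let A : Q →* Q := MonoidHom.mk' (fun q => ⟨a q, h.map q q.2⟩) (fun q r => Subtype.ext (h.mul q q.2 r r.2))
  have hAz : A z' = z' := Subtype.ext h.az
  let σ : Q →* Q := MonoidHom.mk' (fun q => ⟨y * q * y⁻¹, h.yN q q.2⟩) (fun q r => Subtype.ext (by
    change y * (q * r : D) * y⁻¹ = (y * q * y⁻¹) * (y * r * y⁻¹)
    group))
  have hσz : σ z' = z' := Subtype.ext (by
    change y * z * y⁻¹ = z
    rw [hzc y]; group)
  let Z : Subgroup Q := zpowers z'
  have hZ : ∀ x : Q, x ∈ Z ↔ x = 1 ∨ x = z' := by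
    intro x
    constructor
    · intro hx
      obtain ⟨k, hk⟩ := Subgroup.mem_zpowers_iff.1 hx
      rw [← hk]
      have hz2 : z' ^ (2 : ℤ) = 1 := by
        rw [show (2 : ℤ) = ((2 : ℕ) : ℤ) from rfl, zpow_natCast, pow_two, hz'z']
      rcases Int.even_or_odd' k with ⟨m, rfl | rfl⟩
      · left; rw [zpow_mul, hz2, one_zpow]
      · right; rw [zpow_add, zpow_mul, hz2, one_zpow, one_mul, zpow_one]
    · rintro (hx | hx)
      · rw [hx]; exact Z.one_mem
      · rw [hx]; exact Subgroup.mem_zpowers z'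
  have hZc : Nat.card Z = 2 := by
    rw [Nat.card_zpowers]
    exact orderOf_eq_prime (p := 2) (by rw [pow_two, hz'z']) hz'1
  haveI hZn : Z.Normal := ⟨fun n hn g => by
    rcases (hZ n).1 hn with hx | hx
    · rw [hx]; simp
    · rw [hx, hz'c g, mul_inv_cancel_right, hZ]; exact Or.inr rfl⟩
  have hBc : Nat.card (Q ⧸ Z) = 16 := by
    have := Subgroup.card_eq_card_quotient_mul_card_subgroup Z
    rw [hQ, hZc] at this
    omega
  let π : Q →* Q ⧸ Z := QuotientGroup.mk' Z
  have hπs : Function.Surjective π := QuotientGroup.mk'_surjective Z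
  have hπ1 : ∀ x : Q, π x = 1 ↔ x = 1 ∨ x = z' := fun x => (QuotientGroup.eq_one_iff x).trans (hZ x)
  have hπ : ∀ x w : Q, π x = π w → x = w ∨ x = z' * w := by
    intro x w hxw
    have h1 : π (x * w⁻¹) = 1 := by rw [map_mul, map_inv, hxw, mul_inv_cancel]
    rcases (hπ1 _).1 h1 with h2 | h2
    · left; exact mul_inv_eq_one.1 h2
    · right; rw [← h2]; group
  have hAle : Z ≤ Z.comap A := by
    intro x hx
    rw [Subgroup.mem_comap]
    rcases (hZ x).1 hx with h1 | h1
    · rw [h1, map_one]; exact Z.one_mem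
    · rw [h1, hAz, hZ]; exact Or.inr rfl
  have hσle : Z ≤ Z.comap σ := by
    intro x hx
    rw [Subgroup.mem_comap]
    rcases (hZ x).1 hx with h1 | h1
    · rw [h1, map_one]; exact Z.one_mem
    · rw [h1, hσz, hZ]; exact Or.inr rfl
  let f : Q ⧸ Z →* Q ⧸ Z := QuotientGroup.map Z Z A hAle
  let g : Q ⧸ Z →* Q ⧸ Z := QuotientGroup.map Z Z σ hσle
  have hf : ∀ x, f (π x) = π (A x) := fun x => rfl
  have hg : ∀ x, g (π x) = π (σ x) := fun x => rfl
  have h3 : ∀ b, f (f (f b)) = b := by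
    intro b
    obtain ⟨x, rfl⟩ := hπs b
    rw [hf, hf, hf]
    congr 1
    exact Subtype.ext (h.cube x x.2)
  have h1 : ∀ b, f b = b → b = 1 := by
    intro b hb
    obtain ⟨x, rfl⟩ := hπs b
    rw [hf] at hb
    rw [hπ1]
    have hAx : A x = x := by
      rcases hπ _ _ hb with h2 | h2
      · exact h2
      · exfalso
        have e1 : A (A (A x)) = z' * x := by
          rw [h2, map_mul, hAz, h2, map_mul, map_mul, hAz, h2]
          calc z' * (z' * (z' * x)) = (z' * z') * (z' * x) := by group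
            _ = z' * x := by rw [hz'z', one_mul]
        have e2 : A (A (A x)) = x := Subtype.ext (h.cube x x.2)
        rw [e2] at e1
        exact hz'1 (mul_eq_right.1 e1.symm)
    rcases hR x x.2 (congrArg Subtype.val hAx) with h2 | h2
    · left; exact Subtype.ext h2
    · right; exact Subtype.ext h2
  -- not elementary abelian
  have hx : ∃ b : Q ⧸ Z, b * b ≠ 1 := by
    by_contra hcon
    push Not at hcon
    obtain ⟨b1, b2, b3, hgen⟩ := three_gen hQi hG.gen
    have hb1 : b1 ∈ Q := by rw [← hgen]; exact Subgroup.subset_closure (by simp)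
    have hb2 : b2 ∈ Q := by rw [← hgen]; exact Subgroup.subset_closure (by simp)
    have hb3 : b3 ∈ Q := by rw [← hgen]; exact Subgroup.subset_closure (by simp)
    have hgen' : closure ({⟨b1, hb1⟩, ⟨b2, hb2⟩, ⟨b3, hb3⟩} : Set Q) = ⊤ := by
      apply Subgroup.map_injective Q.subtype_injective
      rw [MonoidHom.map_closure, ← MonoidHom.range_eq_map, Subgroup.range_subtype]
      refine Eq.trans ?_ hgen
      congr 1
      ext x
      simp only [Set.mem_image, Set.mem_insert_iff, Set.mem_singleton_iff]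
      constructor
      · rintro ⟨w, (rfl | rfl | rfl), rfl⟩
        · exact Or.inl rfl
        · exact Or.inr (Or.inl rfl)
        · exact Or.inr (Or.inr rfl)
      · rintro (rfl | rfl | rfl)
        · exact ⟨_, Or.inl rfl, rfl⟩
        · exact ⟨_, Or.inr (Or.inl rfl), rfl⟩
        · exact ⟨_, Or.inr (Or.inr rfl), rfl⟩
    have hgen'' : closure ({π ⟨b1, hb1⟩, π ⟨b2, hb2⟩, π ⟨b3, hb3⟩} : Set (Q ⧸ Z)) = ⊤ := by
      have h4 : (closure ({⟨b1, hb1⟩, ⟨b2, hb2⟩, ⟨b3, hb3⟩} : Set Q)).map π = ⊤ := by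
        rw [hgen', ← MonoidHom.range_eq_map, MonoidHom.range_eq_top.2 hπs]
      rw [MonoidHom.map_closure, Set.image_insert_eq, Set.image_insert_eq, Set.image_singleton] at h4
      exact h4
    have := card_le_eight hgen'' hcon
    omega
  have hcomm := fpf_comm h3 h1 hBc
  obtain ⟨hsq, hcK⟩ := fpf16 h3 h1 hBc hx
  have hn1 := norm1 h3 h1
  -- the action of `y`
  have hfg : ∀ b, f (g (f b)) = g b := by
    intro b
    obtain ⟨x, rfl⟩ := hπs b
    rw [hf, hg, hf, hg]
    congr 1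
    exact Subtype.ext (h.inv x x.2)
  obtain ⟨b0, hb0⟩ : ∃ b : Q ⧸ Z, g (b * b) ≠ b * b := by
    by_contra hcon
    push Not at hcon
    obtain ⟨b, hb⟩ := hx
    apply hb
    have e1 : g (b * b) = b * b := hcon b
    have e2 : g (f (b * b)) = f (b * b) := by
      rw [map_mul f]; exact hcon (f b)
    have e3 := hfg (b * b)
    rw [e2, e1] at e3
    have e4 : f (b * b) = b * b := by
      have := h3 (b * b)
      rwa [e3] at this
    exact h1 _ e4
  obtain ⟨x0, hx0⟩ := hπs b0
  -- facts in `Q`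
  have hc1 : ∀ x w : Q, x * w = w * x ∨ x * w = z' * (w * x) := fun x w =>
    hπ _ _ (by rw [map_mul, map_mul, hcomm])
  have hsqc : ∀ x w : Q, x * x * w = w * (x * x) := by
    intro x w
    rcases hc1 x w with h4 | h4
    · rw [mul_assoc, h4, ← mul_assoc, h4, mul_assoc]
    · calc x * x * w = x * (x * w) := by group
        _ = (x * z') * (w * x) := by rw [h4]; group
        _ = z' * (x * w) * x := by rw [hz'c x]; group
        _ = (z' * z') * (w * (x * x)) := by rw [h4]; group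
        _ = w * (x * x) := by rw [hz'z', one_mul]
  have hFc : ∀ x : Q, π x * π x = 1 → ∀ w : Q, x * w = w * x := by
    intro x hx w
    obtain ⟨c, hc⟩ := (hsq _).1 hx
    obtain ⟨v, rfl⟩ := hπs c
    rw [← map_mul] at hc
    rcases hπ _ _ hc with h4 | h4
    · rw [h4]; exact hsqc v w
    · rw [h4, mul_assoc, hsqc v w, ← mul_assoc, ← hz'c w, mul_assoc]
  have hD : ∀ w : D, (∀ q ∈ Q, w * q = q * w) → w * y = y * w → w ∈ center D := by
    intro w hw hwy
    rw [Subgroup.mem_center_iff]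
    intro d
    by_cases hd : d ∈ Q
    · exact (hw d hd).symm
    · have h4 : y⁻¹ * d ∈ Q := by
        refine (Subgroup.mul_mem_iff_of_index_two hQi).2 ⟨fun hc => absurd ?_ h.yQ, fun hc => absurd hc hd⟩
        simpa using Q.inv_mem hc
      have h5 := hw _ h4
      calc d * w = y * ((y⁻¹ * d) * w) := by group
        _ = (y * w) * (y⁻¹ * d) := by rw [← h5]; group
        _ = w * d := by rw [← hwy]; group
  have hb4 : ∀ b : Q ⧸ Z, b * b * (b * b) = 1 := fun b => (hsq (b * b)).2 ⟨b, rfl⟩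
  have hyy : ∀ x : Q, y * (y * x * y⁻¹) * y⁻¹ = (y * y) * x * (y * y)⁻¹ := fun x => by group
  -- `Q` is not abelian
  have hna : ∃ x w : Q, x * w ≠ w * x := by
    by_contra hcon
    push Not at hcon
    have hcon' : ∀ x ∈ Q, ∀ w ∈ Q, x * w = w * x := fun x hx w hw =>
      congrArg Subtype.val (hcon ⟨x, hx⟩ ⟨w, hw⟩)
    have hw : (x0 : D) * (σ x0 : D) ∈ center D := by
      refine hD _ (fun q hq => hcon' _ (x0 * σ x0).2 _ hq) ?_
      have e1 : y * ((x0 : D) * (σ x0 : D)) * y⁻¹ = (x0 : D) * (σ x0 : D) := by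
        have e2 : y * ((x0 : D) * (σ x0 : D)) * y⁻¹ = (σ x0 : D) * ((y * y) * x0 * (y * y)⁻¹) := by
          change y * ((x0 : D) * (y * x0 * y⁻¹)) * y⁻¹ = (y * x0 * y⁻¹) * ((y * y) * x0 * (y * y)⁻¹)
          group
        rw [e2, hcon' _ h.yy _ x0.2, mul_inv_cancel_right]
        exact hcon' _ (σ x0).2 _ x0.2
      calc (x0 : D) * (σ x0 : D) * y = (y * ((x0 : D) * (σ x0 : D)) * y⁻¹) * y := by rw [e1]
        _ = y * ((x0 : D) * (σ x0 : D)) := by group
    have hww := hG.centre _ hw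
    have hww' : (x0 * σ x0) * (x0 * σ x0) = 1 := Subtype.ext hww
    have h4 := congrArg π hww'
    rw [map_mul, map_mul, ← hg, hx0, map_one] at h4
    apply hb0
    have h5 : (b0 * b0) * g (b0 * b0) = 1 := by
      rw [← h4, map_mul]
      calc b0 * b0 * (g b0 * g b0) = b0 * (b0 * g b0) * g b0 := by group
        _ = b0 * (g b0 * b0) * g b0 := by rw [hcomm b0 (g b0)]
        _ = _ := by group
    exact mul_left_cancel (h5.trans (hb4 b0).symm)
  -- the centre of `Q`
  let F : Subgroup Q := (MonoidHom.mk' (fun b : Q ⧸ Z => b * b) (fun b c => by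
    change b * c * (b * c) = b * b * (c * c)
    rw [mul_assoc, ← mul_assoc c, hcomm c b]; group)).ker.comap π
  have hF : ∀ x, x ∈ F ↔ π x * π x = 1 := fun x => Iff.rfl
  have hFcard : Nat.card F = 8 := by
    have e1 := Subgroup.index_comap_of_surjective (MonoidHom.mk' (fun b : Q ⧸ Z => b * b) (fun b c => by
      change b * c * (b * c) = b * b * (c * c)
      rw [mul_assoc, ← mul_assoc c, hcomm c b]; group)).ker hπs
    have e2 := Subgroup.card_mul_index (MonoidHom.mk' (fun b : Q ⧸ Z => b * b) (fun b c => by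
      change b * c * (b * c) = b * b * (c * c)
      rw [mul_assoc, ← mul_assoc c, hcomm c b]; group)).ker
    rw [hBc] at e2
    have e3 := Subgroup.card_mul_index F
    rw [hQ] at e3
    change F.index = _ at e1
    rw [← e1] at e2
    change Nat.card {b : Q ⧸ Z // b * b = 1} * F.index = 16 at e2
    rw [hcK] at e2
    have e4 : F.index = 4 := by omega
    rw [e4] at e3
    omega
  have hFC : F ≤ center Q := by
    intro x hx
    rw [Subgroup.mem_center_iff]
    intro w
    exact (hFc x hx w).symm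
  have hCc : Nat.card (center Q) ≤ 8 := by
    obtain ⟨x, w, hxw⟩ := hna
    let K := Subgroup.centralizer ({x} : Set Q)
    have hmK : ∀ w, w ∈ K ↔ x * w = w * x := by
      intro w
      rw [Subgroup.mem_centralizer_iff]
      simp
    have e1 : center Q ≤ K := fun c hc => (hmK c).2 (Subgroup.mem_center_iff.1 hc x)
    have e2 : 2 * Nat.card (center Q) ≤ Nat.card K := by
      refine two_mul_card_le e1 (fun hc => hxw ?_)
      have : x ∈ center Q := by rw [hc]; exact (hmK x).2 rfl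
      exact (Subgroup.mem_center_iff.1 this w).symm
    have e3 : 2 * Nat.card K ≤ Nat.card (⊤ : Subgroup Q) := by
      refine two_mul_card_le le_top (fun hc => hxw ?_)
      have : w ∈ K := by rw [hc]; exact Subgroup.mem_top w
      exact (hmK w).1 this
    rw [Subgroup.card_top, hQ] at e3
    omega
  have hCF : F = center Q := Subgroup.eq_of_le_of_card_ge hFC (by omega)
  have hcen : ∀ x : Q, (∀ w : Q, x * w = w * x) ↔ π x * π x = 1 := by
    intro x
    rw [← hF, hCF, Subgroup.mem_center_iff]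
    exact ⟨fun hw w => (hw w).symm, fun hw w => (hw w).symm⟩
  have hQw : ∀ x : Q, (∀ w ∈ Q, (x : D) * w = w * x) ↔ ∀ w : Q, x * w = w * x := by
    intro x
    exact ⟨fun hw w => Subtype.ext (hw w w.2), fun hw w hwQ => congrArg Subtype.val (hw ⟨w, hwQ⟩)⟩
  refine ⟨?_, ?_⟩
  · refine ⟨hQ, h.cent, ?_, ?_, ?_, ?_, ?_, ?_, ?_⟩
    · intro x hx w hw
      rcases hc1 ⟨x, hx⟩ ⟨w, hw⟩ with h4 | h4
      · left; exact congrArg Subtype.val h4
      · right; exact congrArg Subtype.val h4
    · obtain ⟨x, w, hxw⟩ := hna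
      exact ⟨x, x.2, w, w.2, fun hc => hxw (Subtype.ext hc)⟩
    · rw [← hFcard]
      refine Nat.card_congr ?_
      refine
        { toFun := fun x => ⟨⟨x.1, x.2.1⟩, (hF _).2 ((hcen _).1 ((hQw ⟨x.1, x.2.1⟩).1 x.2.2))⟩
          invFun := fun x => ⟨x.1.1, x.1.2, (hQw x.1).2 ((hcen _).2 ((hF _).1 x.2))⟩
          left_inv := fun x => rfl
          right_inv := fun x => rfl }
    · intro x hx hxw
      have h4 := (hcen ⟨x, hx⟩).1 ((hQw ⟨x, hx⟩).1 hxw)
      obtain ⟨c, hc⟩ := (hsq _).1 h4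
      obtain ⟨v, rfl⟩ := hπs c
      rw [← map_mul] at hc
      refine ⟨v, v.2, ?_⟩
      rcases hπ _ _ hc with h5 | h5
      · left; exact congrArg Subtype.val h5
      · right
        have h6 : x = z * (v * v) := congrArg Subtype.val h5
        rw [h6, hzc]
    · intro x hx hxw
      have h4 := (hcen ⟨x, hx⟩).1 ((hQw ⟨x, hx⟩).1 hxw)
      obtain ⟨X, hX⟩ : ∃ X : Q, X = ⟨x, hx⟩ := ⟨_, rfl⟩
      rw [← hX] at h4
      have h5 : X * X = 1 := by
        rcases (hπ1 (X * X)).1 (by rw [map_mul]; exact h4) with h6 | h6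
        · exact h6
        · exfalso
          have c1 := hFc X h4
          have h7 : π (A X) * π (A X) = 1 := by rw [← hf, ← map_mul, h4, map_one]
          have c2 := hFc (A X) h7
          have h8 : A X * A X = z' := by rw [← map_mul, h6, hAz]
          have h9 : A (A X) * A (A X) = z' := by rw [← map_mul, h8, hAz]
          have h10 : (X * A X * A (A X)) * (X * A X * A (A X)) = z' := by
            calc (X * A X * A (A X)) * (X * A X * A (A X)) = X * (A X * (A (A X) * (X * (A X * A (A X))))) := by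
                  simp only [mul_assoc]
              _ = X * (A X * (X * ((A X * A (A X)) * A (A X)))) := by
                  rw [← mul_assoc (A (A X)) X, ← c1 (A (A X)), mul_assoc X (A (A X)), ← mul_assoc (A (A X)) (A X),
                    ← c2 (A (A X))]
              _ = (X * X) * (A X * A X) * (A (A X) * A (A X)) := by
                  rw [← mul_assoc (A X) X, ← c1 (A X)]; simp only [mul_assoc]
              _ = z' := by rw [h6, h8, h9, hz'z', one_mul]
          have h11 : π (X * A X * A (A X)) = 1 := by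
            rw [map_mul, map_mul]
            exact hn1 (π X)
          rcases (hπ1 _).1 h11 with h12 | h12
          · rw [h12, one_mul] at h10; exact hz'1 h10.symm
          · rw [h12, hz'z'] at h10; exact hz'1 h10.symm
      rw [hX] at h5
      exact congrArg Subtype.val h5
    · intro x hx hxw hxx
      apply hxw
      refine (hQw ⟨x, hx⟩).2 ((hcen _).2 ?_)
      rw [← map_mul, show (⟨x, hx⟩ : Q) * ⟨x, hx⟩ = 1 from Subtype.ext hxx, map_one]
    · refine ⟨x0 * x0, Q.mul_mem x0.2 x0.2, ?_, ?_⟩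
      · exact (hQw (x0 * x0)).2 (hsqc x0)
      · intro hc
        apply hb0
        rw [← hx0, ← map_mul, hg]
        congr 1
        refine Subtype.ext ?_
        change y * ((x0 : D) * x0) * y⁻¹ = (x0 : D) * x0
        rw [Subgroup.mem_center_iff.1 hc y, mul_inv_cancel_right]
  · refine ⟨(x0 * x0 * σ (x0 * x0) : Q), ?_, ?_, ?_⟩
    · refine hD _ ?_ ?_
      · refine (hQw _).2 fun w => ?_
        rw [map_mul σ]
        rw [mul_assoc, hsqc (σ x0) w, ← mul_assoc, hsqc x0 w, mul_assoc]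
      · have e0 : ((x0 * x0 : Q) : D) * (y * y) = (y * y) * ((x0 * x0 : Q) : D) :=
          congrArg Subtype.val (hsqc x0 ⟨y * y, h.yy⟩)
        have e1 : ((x0 * x0 : Q) : D) * (σ (x0 * x0) : D) = (σ (x0 * x0) : D) * ((x0 * x0 : Q) : D) :=
          congrArg Subtype.val (hsqc x0 (σ (x0 * x0)))
        change ((x0 * x0 : Q) : D) * (σ (x0 * x0) : D) * y = y * (((x0 * x0 : Q) : D) * (σ (x0 * x0) : D))
        have e2 : (σ (x0 * x0) : D) = y * ((x0 * x0 : Q) : D) * y⁻¹ := rfl
        rw [e2] at e1 ⊢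
        generalize ((x0 * x0 : Q) : D) = S at e0 e1
        calc S * (y * S * y⁻¹) * y = S * y * S := by group
          _ = (S * (y * y)) * y⁻¹ * S := by group
          _ = y * ((y * S * y⁻¹) * S) := by rw [e0]; group
          _ = y * (S * (y * S * y⁻¹)) := by rw [← e1]
    · intro hc
      apply hb0
      have h4 : π (x0 * x0 * σ (x0 * x0)) = 1 := by
        rw [show (x0 * x0 * σ (x0 * x0) : Q) = 1 from Subtype.ext hc, map_one]
      rw [map_mul, ← hg, map_mul, hx0] at h4
      exact mul_left_cancel (h4.trans (hb4 b0).symm)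
    · intro hc
      apply hb0
      have h4 : π (x0 * x0 * σ (x0 * x0)) = 1 := (hπ1 _).2 (Or.inr (Subtype.ext hc))
      rw [map_mul, ← hg, map_mul, hx0] at h4
      exact mul_left_cancel (h4.trans (hb4 b0).symm)

end Cfsg.Agent.H807.S45
end

-- part: H809/Two/GL32
section
/-!
# S4543, T1: subgroups of `GL(3,2)` (helper809)
-/

set_option autoImplicit false

namespace Cfsg.Agent.H809.Two

open Subgroup Cfsg.Agent.H617.Two Cfsg.Agent.SmallSimple.KleinFourAut Cfsg.Agent.SmallSimple.S1000.FrameAut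

section

variable {V : Type*} [Group V]

theorem card_ne_one (h8 : Nat.card V = 8) : Nat.card {x : V // x ≠ 1} = 7 := by
  classical
  have : Finite V := Nat.finite_of_card_ne_zero (by omega)
  have := Fintype.ofFinite V
  have h1 : Nat.card {x : V // x ≠ 1} = Fintype.card V - 1 := by
    rw [Nat.card_eq_fintype_card, Fintype.card_subtype_compl, Fintype.card_subtype_eq]
  rw [h1, ← Nat.card_eq_fintype_card, h8]

theorem autPerm_coe (σ : MulAut V) (x : {x : V // x ≠ 1}) : ((autPerm V σ x : {x : V // x ≠ 1}) : V) = σ x := rfl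

/-- an automorphism of order seven is transitive -/
theorem seven_trans (h8 : Nat.card V = 8) {σ : MulAut V} (hσ : orderOf σ = 7) {a b : V} (ha : a ≠ 1) (hb : b ≠ 1) :
    ∃ i : ℕ, (σ ^ i) a = b := by
  classical
  have : Finite V := Nat.finite_of_card_ne_zero (by omega)
  have := Fintype.ofFinite V
  have hc : Fintype.card {x : V // x ≠ 1} = 7 := by rw [← Nat.card_eq_fintype_card, card_ne_one h8]
  have ho : orderOf (autPerm V σ) = 7 := by rw [orderOf_injective _ (autPerm_injective V), hσ]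
  have hcyc : (autPerm V σ).IsCycle := by
    refine Equiv.Perm.isCycle_of_prime_order'' (by rw [hc]; norm_num) ?_
    rw [ho, hc]
  have hsup : (autPerm V σ).support = Finset.univ := by
    rw [← Finset.card_eq_iff_eq_univ, hc, ← hcyc.orderOf, ho]
  have hne : ∀ x, autPerm V σ x ≠ x := fun x => Equiv.Perm.mem_support.1 (by rw [hsup]; exact Finset.mem_univ _)
  obtain ⟨i, hi⟩ := hcyc.exists_pow_eq (hne ⟨a, ha⟩) (hne ⟨b, hb⟩)
  refine ⟨i, ?_⟩
  rw [← map_pow] at hi
  exact congrArg Subtype.val hi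

/-- an automorphism of order seven has no fixed point -/
theorem seven_free (h8 : Nat.card V = 8) {σ : MulAut V} (hσ : orderOf σ = 7) {a : V} (ha : a ≠ 1) {i : ℕ}
    (hi : (σ ^ i) a = a) : σ ^ i = 1 := by
  refine MulEquiv.ext fun b => ?_
  rw [MulAut.one_apply]
  by_cases hb : b = 1
  · rw [hb, map_one]
  · obtain ⟨j, rfl⟩ := seven_trans h8 hσ ha hb
    rw [← MulAut.mul_apply, ← pow_add, add_comm, pow_add, MulAut.mul_apply, hi]

/-- a 2-element has a fixed point -/
theorem exists_fixed (h8 : Nat.card V = 8) {t : MulAut V} {k : ℕ} (ht : t ^ 2 ^ k = 1) :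
    ∃ a : V, a ≠ 1 ∧ t a = a := by
  classical
  have : Finite V := Nat.finite_of_card_ne_zero (by omega)
  have : Fact (Nat.Prime 2) := ⟨Nat.prime_two⟩
  have hp : IsPGroup 2 (zpowers (autPerm V t)) := by
    apply isPGroup_zpowers_of_pow (k := k)
    rw [← map_pow, ht, map_one]
  obtain ⟨x, hx⟩ := hp.nonempty_fixed_point_of_prime_not_dvd_card {x : V // x ≠ 1} (by
    rw [card_ne_one h8]; norm_num)
  refine ⟨x, x.2, ?_⟩
  have h1 := hx ⟨autPerm V t, mem_zpowers _⟩
  exact congrArg Subtype.val h1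

end

theorem T1b {V : Type*} [Group V] [Finite V] (h8 : Nat.card V ∣ 8) (hel : ∀ v : V, v * v = 1)
    (t h : MulAut V) (ht : t * t = 1) (hinv : t * h * t⁻¹ = h⁻¹) (hodd : Odd (orderOf h)) :
    h ^ 3 = 1 := by
  have hpos : 0 < Nat.card V := Nat.card_pos
  have hdiv : Nat.card V = 1 ∨ Nat.card V = 2 ∨ Nat.card V = 4 ∨ Nat.card V = 8 := by
    have : Nat.card V ≤ 8 := Nat.le_of_dvd (by norm_num) h8
    interval_cases hc : Nat.card V <;> revert h8 <;> decide
  have hsmall : ∀ m, Nat.card (MulAut V) ∣ m → m ∣ 6 → h ^ 3 = 1 := by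
    intro m hm h6
    have h1 : orderOf h ∣ 3 * 2 := (orderOf_dvd_natCard h).trans (hm.trans h6)
    have h2 : Nat.Coprime (orderOf h) 2 := Nat.coprime_two_right.2 hodd
    exact orderOf_dvd_iff_pow_eq_one.1 (h2.dvd_of_dvd_mul_right h1)
  rcases hdiv with hc | hc | hc | hc
  · exact hsmall _ (card_mulAut_dvd V) (by rw [hc]; decide)
  · exact hsmall _ (card_mulAut_dvd V) (by rw [hc]; decide)
  · exact hsmall _ (card_mulAut_dvd V) (by rw [hc]; decide)
  -- order 8
  have h168 : orderOf h ∣ 168 := by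
    rw [← card_mulAut hel hc]
    exact orderOf_dvd_natCard h
  have h21 : orderOf h ∣ 3 * 7 := by
    have h2 : Nat.Coprime (orderOf h) 8 := Nat.Coprime.pow_right 3 (Nat.coprime_two_right.2 hodd)
    exact h2.dvd_of_dvd_mul_right (show orderOf h ∣ 3 * 7 * 8 from h168)
  by_cases h7 : 7 ∣ orderOf h
  · exfalso
    obtain ⟨k, hk⟩ := h7
    have hfin : Finite (MulAut V) := Nat.finite_of_card_ne_zero (by rw [card_mulAut hel hc]; norm_num)
    have hk0 : k ≠ 0 := by
      rintro rfl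
      rw [mul_zero] at hk
      exact (orderOf_pos h).ne' hk
    have hg : orderOf (h ^ k) = 7 := by
      rw [orderOf_pow_of_dvd hk0 (by rw [hk]; exact Dvd.intro_left _ rfl), hk]
      exact Nat.mul_div_cancel _ (Nat.pos_of_ne_zero hk0)
    have hti : ∀ i : ℕ, ∀ v : V, t (((h ^ k) ^ i) v) = (((h ^ k) ^ i)⁻¹) (t v) := by
      intro i v
      have h1 : t * (h ^ k) ^ i = ((h ^ k) ^ i)⁻¹ * t := by
        have h2 : t * (h ^ k) ^ i * t⁻¹ = ((h ^ k) ^ i)⁻¹ := by
          rw [← conj_pow, ← conj_pow, hinv, inv_pow, inv_pow]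
        rw [← h2]
        group
      exact DFunLike.congr_fun h1 v
    obtain ⟨a, ha, hta⟩ := exists_fixed hc (t := t) (k := 1) (by rw [pow_one, pow_two, ht])
    -- a second fixed point
    obtain ⟨b, hb, hba, htb⟩ : ∃ b : V, b ≠ 1 ∧ b ≠ a ∧ t b = b := by
      by_contra hno
      push Not at hno
      let _ : CommGroup V := cg hel
      let φ : V →* V :=
        { toFun := fun v => v * t v
          map_one' := by rw [map_one, mul_one]
          map_mul' := fun v w => by
            rw [map_mul]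
            exact mul_mul_mul_comm _ _ _ _ }
      have htt : ∀ v, t (t v) = v := fun v => DFunLike.congr_fun ht v
      have hfix : ∀ v, t v = v → v = 1 ∨ v = a := by
        intro v hv
        by_cases h1 : v = 1
        · exact Or.inl h1
        · right
          by_contra h2
          exact hno v h1 h2 hv
      have hker : ∀ v ∈ φ.ker, v = 1 ∨ v = a := by
        intro v hv
        apply hfix
        have h1 : v * t v = 1 := hv
        have h2 : v * t v = v * v := by rw [h1, hel]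
        exact mul_left_cancel h2
      have hran : ∀ v ∈ φ.range, v = 1 ∨ v = a := by
        rintro _ ⟨v, rfl⟩
        apply hfix
        show t (v * t v) = v * t v
        rw [map_mul, htt]
        exact comm_of_sq hel _ _
      have hle : ∀ K : Subgroup V, (∀ v ∈ K, v = 1 ∨ v = a) → Nat.card K ≤ 2 := by
        intro K hK
        have h1 : (K : Set V) ⊆ {1, a} := fun v hv => hK v hv
        calc Nat.card K = (K : Set V).ncard := Nat.card_coe_set_eq _
          _ ≤ ({1, a} : Set V).ncard := Set.ncard_le_ncard h1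
          _ ≤ 2 := Set.ncard_insert_le _ _ |>.trans (by rw [Set.ncard_singleton])
      have h1 : Nat.card φ.ker * Nat.card φ.range = 8 := by
        rw [← hc, ← φ.ker.card_mul_index, Subgroup.index_ker]
      have h2 := hle _ hker
      have h3 := hle _ hran
      have : Nat.card φ.ker * Nat.card φ.range ≤ 2 * 2 := Nat.mul_le_mul h2 h3
      omega
    obtain ⟨i, hi⟩ := seven_trans hc hg ha hb
    have h1 := hti i a
    rw [hi, htb, hta, ← hi] at h1
    have h2 : (((h ^ k) ^ i) * ((h ^ k) ^ i)) a = a := by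
      rw [MulAut.mul_apply, h1, MulAut.apply_inv_self]
    rw [← pow_add] at h2
    have h3 := seven_free hc hg ha h2
    have h4 : 7 ∣ i + i := by rw [← hg]; exact orderOf_dvd_of_pow_eq_one h3
    have h5 : 7 ∣ i := by omega
    have h6 : (h ^ k) ^ i = 1 := orderOf_dvd_iff_pow_eq_one.1 (by rw [hg]; exact h5)
    rw [h6, MulAut.one_apply] at hi
    exact hba hi.symm
  · have h7' : Nat.Coprime (orderOf h) 7 := ((Nat.Prime.coprime_iff_not_dvd (by norm_num)).2 h7).symm
    exact orderOf_dvd_iff_pow_eq_one.1 (h7'.dvd_of_dvd_mul_right h21)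

theorem T1a {V : Type*} [Group V] [Finite V] (h8 : Nat.card V ∣ 8) (hel : ∀ v : V, v * v = 1)
    (O : Subgroup (MulAut V)) (h4 : 4 ∣ Nat.card O) (h8' : ¬ 8 ∣ Nat.card O) :
    ∃ N : Subgroup O, N.Normal ∧ IsPGroup 2 N ∧ N ≠ ⊥ := by
  classical
  have hf2 : Fact (Nat.Prime 2) := ⟨Nat.prime_two⟩
  have hf7 : Fact (Nat.Prime 7) := ⟨by norm_num⟩
  have hpos : 0 < Nat.card V := Nat.card_pos
  have hdiv : Nat.card V = 1 ∨ Nat.card V = 2 ∨ Nat.card V = 4 ∨ Nat.card V = 8 := by
    have : Nat.card V ≤ 8 := Nat.le_of_dvd (by norm_num) h8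
    interval_cases hc : Nat.card V <;> revert h8 <;> decide
  have hO : Nat.card O ∣ Nat.card (MulAut V) := card_subgroup_dvd_card O
  have hsmall : ∀ m, Nat.card (MulAut V) ∣ m → m ∣ 6 → False := by
    intro m hm h6
    have : 4 ∣ 6 := h4.trans (hO.trans (hm.trans h6))
    revert this
    decide
  rcases hdiv with hc | hc | hc | hc
  · exact (hsmall _ (card_mulAut_dvd V) (by rw [hc]; decide)).elim
  · exact (hsmall _ (card_mulAut_dvd V) (by rw [hc]; decide)).elim
  · exact (hsmall _ (card_mulAut_dvd V) (by rw [hc]; decide)).elim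
  rw [card_mulAut hel hc] at hO
  have hfin : Finite (MulAut V) := Nat.finite_of_card_ne_zero (by rw [card_mulAut hel hc]; norm_num)
  obtain ⟨T⟩ : Nonempty (Sylow 2 O) := inferInstance
  have hfac : (Nat.card O).factorization 2 = 2 := by
    have h0 : Nat.card O ≠ 0 := Nat.card_pos.ne'
    have ha : 2 ≤ (Nat.card O).factorization 2 := (Nat.prime_two.pow_dvd_iff_le_factorization h0).1 h4
    have hb : ¬ 3 ≤ (Nat.card O).factorization 2 := fun h => h8' ((Nat.prime_two.pow_dvd_iff_le_factorization h0).2 h)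
    omega
  have hT : Nat.card T = 4 := by rw [T.card_eq_multiplicity, hfac]; norm_num
  -- no element of order 7
  by_cases h7 : 7 ∣ Nat.card O
  · exfalso
    obtain ⟨P⟩ : Nonempty (Sylow 7 O) := inferInstance
    have hfac7 : (Nat.card O).factorization 7 = 1 := by
      have h0 : Nat.card O ≠ 0 := Nat.card_pos.ne'
      have ha : 1 ≤ (Nat.card O).factorization 7 := (hf7.out.dvd_iff_one_le_factorization h0).1 h7
      have hb : ¬ 2 ≤ (Nat.card O).factorization 7 := fun h => by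
        have := ((hf7.out.pow_dvd_iff_le_factorization h0).2 h).trans hO
        revert this
        decide
      omega
    have hP : Nat.card P = 7 := by rw [P.card_eq_multiplicity, hfac7, pow_one]
    have hidx : (P : Subgroup O).index * 7 = Nat.card O := by
      have h1 := (P : Subgroup O).card_mul_index
      have h2 : Nat.card (P : Subgroup O) = 7 := hP
      rw [h2] at h1
      rw [mul_comm]
      exact h1
    have h12 : (P : Subgroup O).index ∣ 12 := by
      have h24 : (P : Subgroup O).index ∣ 24 := by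
        have : (P : Subgroup O).index * 7 ∣ 24 * 7 := by rw [hidx]; exact hO
        exact Nat.dvd_of_mul_dvd_mul_right (by norm_num) this
      have hn8 : ¬ 8 ∣ (P : Subgroup O).index := fun h => h8' (h.trans (Dvd.intro _ hidx))
      have hle : (P : Subgroup O).index ≤ 24 := Nat.le_of_dvd (by norm_num) h24
      interval_cases hi : (P : Subgroup O).index <;> revert h24 hn8 <;> decide
    have hn7 : Nat.card (Sylow 7 O) = 1 := by
      have h1 := (P.card_dvd_index).trans h12
      have h2 := card_sylow_modEq_one 7 O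
      have hle : Nat.card (Sylow 7 O) ≤ 12 := Nat.le_of_dvd (by norm_num) h1
      unfold Nat.ModEq at h2
      interval_cases hi : Nat.card (Sylow 7 O) <;> revert h1 h2 <;> decide
    have hsub : Subsingleton (Sylow 7 O) := (Nat.card_eq_one_iff_unique.1 hn7).1
    have hPn : (P : Subgroup O).Normal := Sylow.normal_of_subsingleton P
    obtain ⟨h, hh⟩ := exists_prime_orderOf_dvd_card' (G := (P : Subgroup O)) 7 (by
      show 7 ∣ Nat.card P
      rw [hP])
    -- an involution centralizing `h`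
    let φ : (T : Subgroup O) →* MulAut (P : Subgroup O) := (MulAut.conjNormal (H := (P : Subgroup O))).comp
      (T : Subgroup O).subtype
    have hcyc : IsCyclic (P : Subgroup O) := isCyclic_of_prime_card (p := 7) hP
    have hAut : Nat.card (MulAut (P : Subgroup O)) = 6 := by
      rw [IsCyclic.card_mulAut, show Nat.card (P : Subgroup O) = 7 from hP]
      decide
    have hran : Nat.card φ.range ∣ 2 := by
      have h1 : Nat.card φ.range ∣ 6 := hAut ▸ card_subgroup_dvd_card φ.range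
      have h2 : Nat.card φ.range ∣ 4 := by
        rw [← Subgroup.index_ker, ← hT]
        exact Subgroup.index_dvd_card _
      exact (Nat.dvd_gcd h1 h2).trans (by decide)
    have hker : φ.ker ≠ ⊥ := by
      intro hb
      have h1 := φ.ker.card_mul_index
      rw [Subgroup.index_ker, hb, card_bot, one_mul] at h1
      have h2 : Nat.card (T : Subgroup O) = 4 := hT
      rw [h2] at h1
      rw [h1] at hran
      revert hran
      decide
    obtain ⟨t, ht⟩ := ne_bot_iff_exists_ne_one.1 hker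
    have htc : ∀ x : (P : Subgroup O), ((t : (T : Subgroup O)) : O) * (x : O) = x * ((t : (T : Subgroup O)) : O) := by
      intro x
      have h1 : φ (t : (T : Subgroup O)) = 1 := t.2
      have h2 := congrArg (fun f : MulAut (P : Subgroup O) => ((f x : (P : Subgroup O)) : O)) h1
      have h3 : ((t : (T : Subgroup O)) : O) * (x : O) * ((t : (T : Subgroup O)) : O)⁻¹ = x := h2
      exact mul_inv_eq_iff_eq_mul.1 h3
    set τ : MulAut V := (((t : (T : Subgroup O)) : O) : MulAut V) with hτ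
    have hτ1 : τ ≠ 1 := by
      intro h1
      exact ht (Subtype.ext (Subtype.ext (Subtype.ext h1)))
    obtain ⟨k, hk⟩ := T.isPGroup' (t : (T : Subgroup O))
    have hτk : τ ^ 2 ^ k = 1 := by
      have := congrArg (fun x : (T : Subgroup O) => ((x : O) : MulAut V)) hk
      exact this
    obtain ⟨a, ha, hta⟩ := exists_fixed hc hτk
    set η : MulAut V := ((h : O) : MulAut V) with hη
    have hη7 : orderOf η = 7 := by
      rw [hη, Subgroup.orderOf_coe, Subgroup.orderOf_coe, hh]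
    apply hτ1
    refine MulEquiv.ext fun b => ?_
    rw [MulAut.one_apply]
    by_cases hb : b = 1
    · rw [hb, map_one]
    · obtain ⟨i, rfl⟩ := seven_trans hc hη7 ha hb
      have h1 : τ * η ^ i = η ^ i * τ := by
        have h2 := htc (h ^ i)
        exact congrArg (fun x : O => (x : MulAut V)) h2
      rw [← MulAut.mul_apply, h1, MulAut.mul_apply, hta]
  · -- order 4 or 12
    by_cases hN : (T : Subgroup O).Normal
    · refine ⟨T, hN, T.isPGroup', fun hb => ?_⟩
      have h1 : Nat.card (T : Subgroup O) = 4 := hT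
      rw [hb, card_bot] at h1
      exact absurd h1 (by norm_num)
    have hidx : 4 * (T : Subgroup O).index = Nat.card O := by
      have h1 := (T : Subgroup O).card_mul_index
      have h2 : Nat.card (T : Subgroup O) = 4 := hT
      rwa [h2] at h1
    have h3 : (T : Subgroup O).index ∣ 3 := by
      have h42 : (T : Subgroup O).index ∣ 42 := by
        have : 4 * (T : Subgroup O).index ∣ 4 * 42 := by rw [hidx]; exact hO
        exact Nat.dvd_of_mul_dvd_mul_left (by norm_num) this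
      have hn2 : ¬ 2 ∣ (T : Subgroup O).index := fun h => h8' (by rw [← hidx]; exact Nat.mul_dvd_mul_left 4 h)
      have hn7 : ¬ 7 ∣ (T : Subgroup O).index := fun h => h7 (by rw [← hidx]; exact h.mul_left 4)
      have hle : (T : Subgroup O).index ≤ 42 := Nat.le_of_dvd (by norm_num) h42
      interval_cases hi : (T : Subgroup O).index <;> revert h42 hn2 hn7 <;> decide
    have hn : Nat.card (Sylow 2 O) = 3 := by
      rcases (Nat.dvd_prime (by norm_num)).1 (T.card_dvd_index.trans h3) with h1 | h1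
      · have hsub : Subsingleton (Sylow 2 O) := (Nat.card_eq_one_iff_unique.1 h1).1
        exact absurd (Sylow.normal_of_subsingleton T) hN
      · exact h1
    have hO12 : Nat.card O = 12 := by
      have h1 : Nat.card (Sylow 2 O) ∣ (T : Subgroup O).index := T.card_dvd_index
      rw [hn] at h1
      have : (T : Subgroup O).index = 3 := Nat.dvd_antisymm h3 h1
      rw [← hidx, this]
    -- the action on the three Sylow 2-subgroups
    let ψ : O →* Equiv.Perm (Sylow 2 O) := MulAction.toPermHom O (Sylow 2 O)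
    have hr6 : Nat.card ψ.range ∣ 6 := by
      have h1 := card_subgroup_dvd_card ψ.range
      rwa [Nat.card_perm, hn] at h1
    have hr3 : 3 ∣ Nat.card ψ.range := by
      have h1 : Nat.card (MulAction.orbit ψ.range T) = 3 := by
        have : MulAction.orbit ψ.range T = Set.univ := by
          refine Set.eq_univ_of_forall fun Q => ?_
          obtain ⟨g, hg⟩ := MulAction.exists_smul_eq O T Q
          exact ⟨⟨ψ g, g, rfl⟩, hg⟩
        rw [this, Nat.card_coe_set_eq, Set.ncard_univ, hn]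
      rw [← h1, ← Nat.card_congr (MulAction.orbitProdStabilizerEquivGroup ψ.range T), Nat.card_prod]
      exact Dvd.intro _ rfl
    have hk : Nat.card ψ.ker * Nat.card ψ.range = 12 := by
      rw [← hO12, ← ψ.ker.card_mul_index, Subgroup.index_ker]
    have hk2 : Nat.card ψ.ker = 2 ^ 1 ∨ Nat.card ψ.ker = 2 ^ 2 := by
      have hle : Nat.card ψ.range ≤ 6 := Nat.le_of_dvd (by norm_num) hr6
      interval_cases hi : Nat.card ψ.range <;> omega
    refine ⟨ψ.ker, MonoidHom.normal_ker ψ, ?_, fun hb => ?_⟩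
    · rcases hk2 with h1 | h1
      · exact IsPGroup.of_card h1
      · exact IsPGroup.of_card h1
    · rw [hb, card_bot] at hk2
      revert hk2
      decide

end Cfsg.Agent.H809.Two
end

-- part: H618/TwoLoc
section
/-!
# S4543, T2: local analysis (helper618)
-/

set_option autoImplicit false
set_option linter.unusedSectionVars false

namespace Cfsg.Agent.H618.TwoLoc

open Subgroup Cfsg.Agent.H617.Two

section general

variable {Q : Type*} [Group Q]

/-- The subgroup generated by the squares and `z`. -/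
def sqz (z : Q) : Subgroup Q := closure ({x | ∃ v, x = v * v} ∪ {z})

theorem sq_mem (z v : Q) : v * v ∈ sqz z := subset_closure (Or.inl ⟨v, rfl⟩)

theorem z_mem (z : Q) : z ∈ sqz z := subset_closure (Or.inr rfl)

theorem sqz_le {z : Q} {H : Subgroup Q} (hz : z ∈ H) (hsq : ∀ v, v * v ∈ H) : sqz z ≤ H := by
  rw [sqz, closure_le]
  rintro x (⟨v, rfl⟩ | rfl)
  · exact hsq v
  · exact hz

theorem aut_mem {z : Q} {β : MulAut Q} (hβ : β z = z) {x : Q} (hx : x ∈ sqz z) :
    β x ∈ sqz z := by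
  have h : sqz z ≤ (sqz z).comap (β : Q →* Q) := by
    refine sqz_le ?_ fun v => ?_
    · rw [mem_comap]
      change β z ∈ sqz z
      rw [hβ]
      exact z_mem z
    · rw [mem_comap]
      change β (v * v) ∈ sqz z
      rw [map_mul]
      exact sq_mem z _
  exact h hx

theorem aut_symm {z : Q} {β : MulAut Q} (hβ : β z = z) : β⁻¹ z = z := by
  rw [MulAut.inv_apply, MulEquiv.symm_apply_eq]
  exact hβ.symm

theorem aut_map {z : Q} {β : MulAut Q} (hβ : β z = z) : (sqz z).map (β : Q ≃* Q) = sqz z := by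
  apply le_antisymm
  · rintro _ ⟨x, hx, rfl⟩
    exact aut_mem hβ hx
  · intro x hx
    refine ⟨β⁻¹ x, aut_mem (aut_symm hβ) hx, ?_⟩
    exact MulAut.apply_inv_self Q β x

theorem sqz_normal {z : Q} (hz : ∀ x, x * z = z * x) : (sqz z).Normal := by
  refine ⟨fun n hn g => ?_⟩
  have h : (MulAut.conj g) z = z := by
    rw [MulAut.conj_apply, hz g, mul_inv_cancel_right]
  have h1 := aut_mem h hn
  rwa [MulAut.conj_apply] at h1

/-- The action on `Q` modulo squares and `z`. -/
def phi (z : Q) [(sqz z).Normal] (A : Subgroup (MulAut Q)) (hA : ∀ β ∈ A, β z = z) :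
    A →* MulAut (Q ⧸ sqz z) where
  toFun β := QuotientGroup.congr (sqz z) (sqz z) (β : MulAut Q) (aut_map (hA β β.2))
  map_one' := by
    apply MulEquiv.ext
    intro x
    obtain ⟨q, rfl⟩ := QuotientGroup.mk_surjective x
    rfl
  map_mul' β γ := by
    apply MulEquiv.ext
    intro x
    obtain ⟨q, rfl⟩ := QuotientGroup.mk_surjective x
    rfl

theorem phi_mk (z : Q) [(sqz z).Normal] (A : Subgroup (MulAut Q)) (hA : ∀ β ∈ A, β z = z)
    (β : A) (q : Q) : phi z A hA β (q : Q ⧸ sqz z) = (((β : MulAut Q) q : Q) : Q ⧸ sqz z) := rfl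

theorem phi_eq_one (z : Q) [(sqz z).Normal] (A : Subgroup (MulAut Q)) (hA : ∀ β ∈ A, β z = z)
    (β : A) : phi z A hA β = 1 ↔ ∀ q, q⁻¹ * (β : MulAut Q) q ∈ sqz z := by
  constructor
  · intro h q
    rw [← QuotientGroup.eq, ← phi_mk z A hA, h, MulAut.one_apply]
  · intro h
    apply MulEquiv.ext
    intro x
    obtain ⟨q, rfl⟩ := QuotientGroup.mk_surjective x
    rw [MulAut.one_apply, phi_mk]
    exact (QuotientGroup.eq.2 (h q)).symm

theorem quot_sq (z : Q) [(sqz z).Normal] (v : Q ⧸ sqz z) : v * v = 1 := by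
  obtain ⟨q, rfl⟩ := QuotientGroup.mk_surjective v
  rw [← QuotientGroup.mk_mul, QuotientGroup.eq_one_iff]
  exact sq_mem z q

/-- Fixed points of permutations of order a prime not dividing the size. -/
theorem exists_fixed {α : Type*} [Finite α] {l : ℕ} (hl : l.Prime) (hα : ¬ l ∣ Nat.card α)
    (f : α → α) (hf : ∀ x, f^[l] x = x) : ∃ x, f x = x := by
  classical
  have := Fintype.ofFinite α
  have : Fact l.Prime := ⟨hl⟩
  by_contra hno
  push Not at hno
  obtain ⟨F, hF⟩ : ∃ F : Function.End α, F = f := ⟨f, rfl⟩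
  have h1 : F ^ l ^ 1 = 1 := by
    rw [pow_one]
    funext x
    have h2 : ∀ n : ℕ, (F ^ n) x = f^[n] x := by
      intro n
      induction n generalizing x with
      | zero => rfl
      | succ n ih =>
        rw [pow_succ, Function.iterate_succ_apply, ← ih (f x), ← hF]
        rfl
    rw [h2]
    exact hf x
  have h2 := Equiv.Perm.card_fixedPoints_modEq (f := F) h1
  have h3 : Nat.card (Function.fixedPoints F) = 0 := by
    rw [Nat.card_eq_zero]
    left
    refine ⟨fun x => hno x.1 ?_⟩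
    rw [← hF]
    exact x.2
  rw [← Nat.card_eq_fintype_card, ← Nat.card_eq_fintype_card, h3] at h2
  exact hα ((Nat.modEq_zero_iff_dvd).1 h2)

/-- Coprime action. -/
theorem eq_one_of_prime [Finite Q] (hQ : IsPGroup 2 Q) {z : Q} [(sqz z).Normal] {l : ℕ}
    (hl : l.Prime) (hl2 : l ≠ 2) {γ : MulAut Q} (hγ : γ ^ l = 1) (hz : γ z = z)
    (h : ∀ q, q⁻¹ * γ q ∈ sqz z) : γ = 1 := by
  -- the fixed points
  let C : Subgroup Q :=
    { carrier := {q | γ q = q}
      one_mem' := map_one γ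
      mul_mem' := by
        rintro a b (ha : γ a = a) (hb : γ b = b)
        change γ (a * b) = a * b
        rw [map_mul, ha, hb]
      inv_mem' := by
        rintro a (ha : γ a = a)
        change γ a⁻¹ = a⁻¹
        rw [map_inv, ha] }
  by_cases hC : C = ⊤
  · apply MulEquiv.ext
    intro q
    have : q ∈ C := by rw [hC]; exact mem_top q
    exact this
  exfalso
  -- a subgroup of index two containing the fixed points
  obtain ⟨n, hn⟩ := IsPGroup.iff_card.1 hQ
  have hn0 : n ≠ 0 := by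
    rintro rfl
    apply hC
    rw [pow_zero] at hn
    have := (Nat.card_eq_one_iff_unique.1 hn).1
    exact Subsingleton.elim _ _
  obtain ⟨m, rfl⟩ := Nat.exists_eq_succ_of_ne_zero hn0
  obtain ⟨k, hk⟩ := IsPGroup.iff_card.1 (hQ.to_subgroup C)
  have hkm : k ≤ m := by
    by_contra hlt
    push Not at hlt
    apply hC
    apply Subgroup.eq_top_of_card_eq
    apply le_antisymm (Subgroup.card_le_card_group C)
    rw [hn, hk]
    exact Nat.pow_le_pow_right (by norm_num) hlt
  have h2 : Fact (Nat.Prime 2) := ⟨Nat.prime_two⟩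
  obtain ⟨K, hK, hCK⟩ := Sylow.exists_subgroup_card_pow_prime_le 2
    (by rw [hn]; exact pow_dvd_pow 2 (Nat.le_succ m)) C hk hkm
  have hKi : K.index = 2 := by
    have h3 := K.card_mul_index
    rw [hK, hn, pow_succ] at h3
    exact Nat.eq_of_mul_eq_mul_left (by positivity) h3
  have hWK : sqz z ≤ K := sqz_le (hCK hz) fun v => Subgroup.mul_self_mem_of_index_two hKi v
  have hK1 : K = ⊤ := by
    rw [eq_top_iff]
    intro q _
    -- a fixed point in `q W`
    have hcard : ¬ l ∣ Nat.card (sqz z) := by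
      obtain ⟨j, hj⟩ := IsPGroup.iff_card.1 (hQ.to_subgroup (sqz z))
      rw [hj]
      intro hd
      have := (Nat.prime_dvd_prime_iff_eq hl Nat.prime_two).1 (hl.dvd_of_dvd_pow hd)
      exact hl2 this
    let F : sqz z → sqz z := fun w => ⟨q⁻¹ * γ (q * w), by
      rw [map_mul, ← mul_assoc]
      exact mul_mem (h q) (aut_mem hz w.2)⟩
    have hF : ∀ (n : ℕ) (w : sqz z), ((F^[n] w : sqz z) : Q) = q⁻¹ * (γ ^ n) (q * w) := by
      intro n
      induction n with
      | zero => intro w; simp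
      | succ n ih =>
        intro w
        rw [Function.iterate_succ_apply', pow_succ', MulAut.mul_apply]
        change q⁻¹ * γ (q * (F^[n] w : sqz z)) = _
        rw [ih, mul_inv_cancel_left]
    obtain ⟨w, hw⟩ := exists_fixed hl hcard F (fun w => Subtype.ext (by
      rw [hF, hγ, MulAut.one_apply, inv_mul_cancel_left]))
    have hw' : q⁻¹ * γ (q * w) = w := congrArg Subtype.val hw
    have h3 : q * w ∈ C := by
      change γ (q * w) = q * w
      rw [← eq_inv_mul_iff_mul_eq, inv_inv] at hw'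
      exact hw'
    have h4 : q = (q * w) * (w : Q)⁻¹ := by rw [mul_inv_cancel_right]
    rw [h4]
    exact mul_mem (hCK h3) (inv_mem (hWK w.2))
  rw [hK1, index_top] at hKi
  omega

/-- The kernel is a `2`-group. -/
theorem ker_pgroup [Finite Q] (hQ : IsPGroup 2 Q) {z : Q} [(sqz z).Normal]
    (A : Subgroup (MulAut Q)) (hA : ∀ β ∈ A, β z = z) : IsPGroup 2 (phi z A hA).ker := by
  have h2 : Fact (Nat.Prime 2) := ⟨Nat.prime_two⟩
  rw [IsPGroup.iff_card]
  by_contra hno
  -- an odd prime divisor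
  obtain ⟨l, hl, hld, hl2⟩ : ∃ l, l.Prime ∧ l ∣ Nat.card (phi z A hA).ker ∧ l ≠ 2 := by
    by_contra hall
    push Not at hall
    apply hno
    refine ⟨_, Nat.eq_prime_pow_of_unique_prime_dvd Nat.card_pos.ne' fun {d} hd hdd =>
      hall d hd hdd⟩
  have : Fact l.Prime := ⟨hl⟩
  obtain ⟨γ, hγ⟩ := exists_prime_orderOf_dvd_card' l hld
  have h1 : ((γ : A) : MulAut Q) = 1 := by
    refine eq_one_of_prime hQ hl hl2 (z := z) ?_ (hA _ (γ : A).2)
      ((phi_eq_one z A hA γ).1 γ.2)
    have h3 := pow_orderOf_eq_one γ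
    rw [hγ] at h3
    exact congrArg (fun x : (phi z A hA).ker => ((x : A) : MulAut Q)) h3
  have h4 : γ = 1 := Subtype.ext (Subtype.ext h1)
  rw [h4, orderOf_one] at hγ
  exact hl.one_lt.ne hγ

end general

section main

variable {D : Type*} [Group D] [Finite D]

/-- The order of `Q` modulo the squares and `z`. -/
theorem card_quot (hG : Good D) {Q : Subgroup D} (hQ : Q ≠ ⊤) (h16 : 16 ≤ Nat.card Q)
    {z : Q} (hz1 : z ≠ 1) [(sqz z).Normal] : Nat.card (Q ⧸ sqz z) ∣ 8 := by
  have hdvd : Nat.card Q ∣ 64 := hG.card ▸ Subgroup.card_subgroup_dvd_card Q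
  have hne : Nat.card Q ≠ 64 := by
    intro h
    apply hQ
    apply Subgroup.eq_top_of_card_eq
    rw [h, hG.card]
  have hcases : Nat.card Q = 16 ∨ Nat.card Q = 32 := by
    have h1 : Nat.card Q ∈ Nat.divisors 64 := Nat.mem_divisors.2 ⟨hdvd, by norm_num⟩
    have h2 : Nat.divisors 64 = {1, 2, 4, 8, 16, 32, 64} := by decide
    rw [h2] at h1
    simp only [Finset.mem_insert, Finset.mem_singleton] at h1
    omega
  have hmul := Subgroup.card_mul_index (sqz z)
  have hidx : Nat.card (Q ⧸ sqz z) = (sqz z).index := rfl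
  rcases hcases with h | h
  · rw [h] at hmul
    have h1 : Nat.card (Q ⧸ sqz z) ∣ 16 := by
      rw [hidx]
      exact Dvd.intro_left _ hmul
    have h2 : Nat.card (sqz z) ≠ 1 := by
      intro h3
      rw [Subgroup.card_eq_one] at h3
      have := z_mem z
      rw [h3, Subgroup.mem_bot] at this
      exact hz1 this
    have h3 : Nat.card (Q ⧸ sqz z) ∈ Nat.divisors 16 := Nat.mem_divisors.2 ⟨h1, by norm_num⟩
    have h4 : Nat.divisors 16 = {1, 2, 4, 8, 16} := by decide
    rw [h4] at h3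
    simp only [Finset.mem_insert, Finset.mem_singleton] at h3
    rcases h3 with h3 | h3 | h3 | h3 | h3
    · rw [h3]; norm_num
    · rw [h3]; norm_num
    · rw [h3]; norm_num
    · rw [h3]
    · rw [← hidx, h3] at hmul
      omega
  · have hQi : Q.index = 2 := by
      have h1 := Subgroup.card_mul_index Q
      rw [h, hG.card] at h1
      omega
    obtain ⟨b1, b2, b3, hgen⟩ := Cfsg.Agent.H807.S45.three_gen hQi hG.gen
    have hb1 : b1 ∈ Q := by rw [← hgen]; exact Subgroup.subset_closure (by simp)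
    have hb2 : b2 ∈ Q := by rw [← hgen]; exact Subgroup.subset_closure (by simp)
    have hb3 : b3 ∈ Q := by rw [← hgen]; exact Subgroup.subset_closure (by simp)
    have hgen' : closure ({⟨b1, hb1⟩, ⟨b2, hb2⟩, ⟨b3, hb3⟩} : Set Q) = ⊤ := by
      apply Subgroup.map_injective Q.subtype_injective
      rw [MonoidHom.map_closure, ← MonoidHom.range_eq_map, Subgroup.range_subtype]
      refine Eq.trans ?_ hgen
      congr 1
      ext x
      simp [Set.image_insert_eq, Set.image_singleton]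
    have h8 : Nat.card (Q ⧸ sqz z) ≤ 8 := by
      refine Cfsg.Agent.H807.S45.card_le_eight (b1 := QuotientGroup.mk' (sqz z) ⟨b1, hb1⟩)
        (b2 := QuotientGroup.mk' (sqz z) ⟨b2, hb2⟩) (b3 := QuotientGroup.mk' (sqz z) ⟨b3, hb3⟩)
        ?_ (quot_sq z)
      rw [eq_top_iff]
      intro x _
      obtain ⟨q, rfl⟩ := QuotientGroup.mk_surjective x
      have h1 : q ∈ closure ({⟨b1, hb1⟩, ⟨b2, hb2⟩, ⟨b3, hb3⟩} : Set Q) := by
        rw [hgen']; exact mem_top q
      have h2 := Subgroup.mem_map_of_mem (QuotientGroup.mk' (sqz z)) h1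
      rw [MonoidHom.map_closure] at h2
      simpa [Set.image_insert_eq, Set.image_singleton] using h2
    have h1 : Nat.card (Q ⧸ sqz z) ∣ 32 := by
      rw [hidx, ← h]
      exact Dvd.intro_left _ hmul
    have h3 : Nat.card (Q ⧸ sqz z) ∈ Nat.divisors 32 := Nat.mem_divisors.2 ⟨h1, by norm_num⟩
    have h4 : Nat.divisors 32 = {1, 2, 4, 8, 16, 32} := by decide
    rw [h4] at h3
    simp only [Finset.mem_insert, Finset.mem_singleton] at h3
    rcases h3 with h3 | h3 | h3 | h3 | h3 | h3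
    · rw [h3]; norm_num
    · rw [h3]; norm_num
    · rw [h3]; norm_num
    · rw [h3]
    · omega
    · omega

/-- An element outside `Q` normalizing `Q` with square in `Q`. -/
theorem exists_y (h2 : IsPGroup 2 D) {Q : Subgroup D} (hQ : Q ≠ ⊤) :
    ∃ y ∈ normalizer (Q : Set D), y ∉ Q ∧ y * y ∈ Q := by
  have : Fact (Nat.Prime 2) := ⟨Nat.prime_two⟩
  have hnil : Group.IsNilpotent D := h2.isNilpotent
  have hlt := Group.normalizerCondition_of_isNilpotent (G := D) Q (lt_top_iff_ne_top.2 hQ)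
  obtain ⟨y, hyN, hyQ⟩ := SetLike.exists_of_lt hlt
  obtain ⟨k, hk⟩ := h2 y
  classical
  have hex : ∃ k, y ^ 2 ^ k ∈ Q := ⟨k, by rw [hk]; exact one_mem Q⟩
  obtain ⟨m, hm⟩ : ∃ m, m = Nat.find hex := ⟨_, rfl⟩
  have hm1 : y ^ 2 ^ m ∈ Q := by rw [hm]; exact Nat.find_spec hex
  rcases m with _ | m
  · rw [pow_zero, pow_one] at hm1
    exact absurd hm1 hyQ
  · refine ⟨y ^ 2 ^ m, pow_mem hyN _, Nat.find_min hex (by omega), ?_⟩
    rw [← pow_two, ← pow_mul, ← pow_succ]
    exact hm1

theorem exists_loc (h2 : IsPGroup 2 D) {Q : Subgroup D} {z : D}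
    (hz : z ∈ center D) (hz1 : z ≠ 1) (hQ : Q ≠ ⊤) (hzQ : z ∈ Q)
    (cent : ∀ x : D, (∀ q ∈ Q, x * q = q * x) → x ∈ Q)
    (A : Subgroup (MulAut Q)) (hfix : ∀ β ∈ A, ∀ q : Q, (q : D) = z → β q = q)
    (T : Subgroup (MulAut Q))
    (hT : ∀ β : MulAut Q, β ∈ T ↔ ∃ x : D, ∀ q : Q, ((β q : Q) : D) = x * q * x⁻¹)
    (hTA : T ≤ A)
    (hrad : ∀ N : Subgroup A, N.Normal → IsPGroup 2 N → ∀ β ∈ N, ∃ x ∈ Q,
      ∀ q : Q, ((((β : A) : MulAut Q) q : Q) : D) = x * q * x⁻¹)
    {V : Type*} [Group V] [Finite V] (h8 : Nat.card V ∣ 8) (hel : ∀ v : V, v * v = 1)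
    (φ : A →* MulAut V) (hker : IsPGroup 2 φ.ker)
    (hinn : ∀ β : A, (∃ x ∈ Q, ∀ q : Q, (((β : MulAut Q) q : Q) : D) = x * q * x⁻¹) → φ β = 1) :
    ∃ (a : D → D) (y : D), Loc Q z a y := by
  classical
  obtain ⟨y, hyN, hyQ, hyy⟩ := exists_y h2 hQ
  obtain ⟨cy, hcy⟩ : ∃ c : MulAut Q, ∀ q : Q, ((c q : Q) : D) = y * q * y⁻¹ :=
    ⟨Q.normalizerMonoidHom ⟨y, hyN⟩, fun q => rfl⟩
  have hcyT : cy ∈ T := (hT cy).2 ⟨y, hcy⟩
  obtain ⟨c, hc⟩ : ∃ c : A, c = ⟨cy, hTA hcyT⟩ := ⟨_, rfl⟩
  have hcq : ∀ q : Q, (((c : MulAut Q) q : Q) : D) = y * q * y⁻¹ := by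
    intro q; rw [hc]; exact hcy q
  -- `c` is not inner
  have hnotinn : ¬ ∃ x ∈ Q, ∀ q : Q, (((c : MulAut Q) q : Q) : D) = x * q * x⁻¹ := by
    rintro ⟨x, hx, h⟩
    apply hyQ
    have h1 : x⁻¹ * y ∈ Q := by
      apply cent
      intro q hq
      have h2 := (hcq ⟨q, hq⟩).symm.trans (h ⟨q, hq⟩)
      have h3 : y * q * y⁻¹ = x * q * x⁻¹ := h2
      calc x⁻¹ * y * q = x⁻¹ * (y * q * y⁻¹) * y := by group
        _ = x⁻¹ * (x * q * x⁻¹) * y := by rw [h3]
        _ = q * (x⁻¹ * y) := by group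
    have h2 := mul_mem hx h1
    rwa [mul_inv_cancel_left] at h2
  have htt : φ c * φ c = 1 := by
    rw [← map_mul]
    refine hinn _ ⟨y * y, hyy, fun q => ?_⟩
    have h1 : (((c * c : A) : MulAut Q) q : Q) = (c : MulAut Q) ((c : MulAut Q) q) := rfl
    rw [h1, hcq, hcq]
    group
  -- the element of order three
  obtain ⟨t, ht⟩ : ∃ t : φ.range, t = ⟨φ c, c, rfl⟩ := ⟨_, rfl⟩
  have hO : ∀ N : Subgroup φ.range, N.Normal → IsPGroup 2 N → t ∉ N := by
    intro N hN hNp htN
    have h1 : IsPGroup 2 (N.comap φ.rangeRestrict) := by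
      refine hNp.comap_of_ker_isPGroup _ ?_
      rw [MonoidHom.ker_rangeRestrict]
      exact hker
    have h2 : (N.comap φ.rangeRestrict).Normal := hN.comap _
    refine hnotinn (hrad _ h2 h1 c ?_)
    rw [Subgroup.mem_comap]
    have : φ.rangeRestrict c = t := by rw [ht]; rfl
    rw [this]
    exact htN
  have ht1 : t ≠ 1 := by
    intro h
    refine hO ⊥ inferInstance (IsPGroup.of_bot) ?_
    rw [h]
    exact one_mem _
  have hord : orderOf t = 2 := by
    refine orderOf_eq_prime ?_ ht1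
    rw [pow_two, ht]
    exact Subtype.ext htt
  obtain ⟨h, hh1, hodd, hinv⟩ := Cfsg.Agent.S0200.result t hord hO
  have hinv' : φ c * (h : MulAut V) * (φ c)⁻¹ = (h : MulAut V)⁻¹ := by
    have h1 := congrArg Subtype.val hinv
    rw [ht] at h1
    exact h1
  have h3 : (h : MulAut V) ^ 3 = 1 := by
    refine Cfsg.Agent.H809.Two.T1b h8 hel (φ c) h htt hinv' ?_
    rw [Subgroup.orderOf_coe]
    exact hodd
  obtain ⟨α0, hα0⟩ := h.2
  have hk0 : α0 ^ 3 ∈ φ.ker := by
    rw [MonoidHom.mem_ker, map_pow, hα0, h3]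
  obtain ⟨j, hj⟩ := hker ⟨_, hk0⟩
  have hj' : (α0 ^ 3) ^ 2 ^ j = 1 := congrArg Subtype.val hj
  obtain ⟨α, hα⟩ : ∃ α : A, α = α0 ^ 4 ^ j := ⟨_, rfl⟩
  have hα3 : α ^ 3 = 1 := by
    rw [hα, ← pow_mul, mul_comm, pow_mul]
    have h4 : (4 : ℕ) ^ j = 2 ^ j * 2 ^ j := by
      rw [← mul_pow]
      norm_num
    rw [h4, pow_mul, hj', one_pow]
  have hφα : φ α = (h : MulAut V) := by
    rw [hα, map_pow, hα0]
    have h4 : (4 : ℕ) ^ j % 3 = 1 := by
      rw [Nat.pow_mod]
      norm_num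
    have h5 : (4 : ℕ) ^ j = 3 * (4 ^ j / 3) + 1 := by omega
    rw [h5, pow_add, pow_mul, h3, one_pow, one_mul, pow_one]
  obtain ⟨β, hβ⟩ : ∃ β : A, β = c * α * c⁻¹ := ⟨_, rfl⟩
  have hφβ : φ β * φ α = 1 := by
    rw [hβ, map_mul, map_mul, map_inv, hφα, hinv', inv_mul_cancel]
  have hβ3 : β ^ 3 = 1 := by
    rw [hβ, conj_pow, hα3, mul_one, mul_inv_cancel]
  -- a fixed point
  have hcard : ¬ 3 ∣ Nat.card φ.ker := by
    have : Fact (Nat.Prime 2) := ⟨Nat.prime_two⟩
    obtain ⟨n, hn⟩ := IsPGroup.iff_card.1 hker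
    rw [hn]
    intro hd
    have := (Nat.prime_dvd_prime_iff_eq Nat.prime_three Nat.prime_two).1
      (Nat.prime_three.dvd_of_dvd_pow hd)
    omega
  let F : φ.ker → φ.ker := fun n => ⟨β * n * α, by
    rw [MonoidHom.mem_ker, map_mul, map_mul, MonoidHom.mem_ker.1 n.2, mul_one, hφβ]⟩
  have hF : ∀ (k : ℕ) (n : φ.ker), ((F^[k] n : φ.ker) : A) = β ^ k * n * α ^ k := by
    intro k
    induction k with
    | zero => intro n; simp
    | succ k ih =>
      intro n
      rw [Function.iterate_succ_apply']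
      change β * (F^[k] n : φ.ker) * α = _
      rw [ih, pow_succ', pow_succ]
      simp only [mul_assoc]
  obtain ⟨n, hn⟩ := exists_fixed Nat.prime_three hcard F (fun n => Subtype.ext (by
    rw [hF, hβ3, hα3, one_mul, mul_one]))
  have hn' : β * n * α = n := congrArg Subtype.val hn
  obtain ⟨x, hx, hxn⟩ := hrad φ.ker inferInstance hker n n.2
  -- the relation
  have hrel : α * ((n : A)⁻¹ * c) * α = (n : A)⁻¹ * c := by
    rw [hβ] at hn'
    have h4 : c * α * c⁻¹ * (n : A) = n * α⁻¹ := by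
      rw [eq_mul_inv_iff_mul_eq]
      exact hn'
    have h5 : (n : A)⁻¹ * c * α = α⁻¹ * (n : A)⁻¹ * c := by
      calc (n : A)⁻¹ * c * α = (n : A)⁻¹ * (c * α * c⁻¹ * n) * ((n : A)⁻¹ * c) := by group
        _ = (n : A)⁻¹ * (n * α⁻¹) * ((n : A)⁻¹ * c) := by rw [h4]
        _ = α⁻¹ * (n : A)⁻¹ * c := by group
    calc α * ((n : A)⁻¹ * c) * α = α * ((n : A)⁻¹ * c * α) := by group
      _ = α * (α⁻¹ * (n : A)⁻¹ * c) := by rw [h5]
      _ = (n : A)⁻¹ * c := by group
  have hc' : ∀ q : Q, (((((n : A)⁻¹ * c : A) : MulAut Q) q : Q) : D) =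
      (x⁻¹ * y) * q * (x⁻¹ * y)⁻¹ := by
    intro q
    obtain ⟨r, hr⟩ : ∃ r, r = (((n : A)⁻¹ * c : A) : MulAut Q) q := ⟨_, rfl⟩
    have h4 : ((n : A) : MulAut Q) r = (c : MulAut Q) q := by
      rw [hr]
      have : ((n : A) : MulAut Q) ((((n : A)⁻¹ * c : A) : MulAut Q) q) =
          (((n : A) * ((n : A)⁻¹ * c) : A) : MulAut Q) q := rfl
      rw [this, mul_inv_cancel_left]
    have h5 := hxn r
    rw [h4, hcq] at h5
    rw [← hr]
    calc (r : D) = x⁻¹ * (x * r * x⁻¹) * x := by group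
      _ = x⁻¹ * (y * q * y⁻¹) * x := by rw [← h5]
      _ = (x⁻¹ * y) * q * (x⁻¹ * y)⁻¹ := by group
  let a : D → D := fun x => if hx : x ∈ Q then (((α : MulAut Q) ⟨x, hx⟩ : Q) : D) else x
  have ha : ∀ q : Q, a q = (((α : MulAut Q) q : Q) : D) := fun q => dif_pos q.2
  refine ⟨a, x⁻¹ * y, ?_⟩
  refine
    { zc := hz
      z1 := hz1
      cent := cent
      map := fun q hq => by rw [ha ⟨q, hq⟩]; exact SetLike.coe_mem _
      mul := fun q hq r hr => by
        have h1 := ha (⟨q, hq⟩ * ⟨r, hr⟩)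
        rw [map_mul] at h1
        rw [ha ⟨q, hq⟩, ha ⟨r, hr⟩]
        exact h1
      cube := fun q hq => by
        rw [ha ⟨q, hq⟩, ha, ha]
        have h1 : (α : MulAut Q) ((α : MulAut Q) ((α : MulAut Q) ⟨q, hq⟩)) =
          ((α ^ 3 : A) : MulAut Q) ⟨q, hq⟩ := by
          rw [pow_succ, pow_two]
          rfl
        rw [h1, hα3]
        rfl
      ne := ?_
      az := by
        rw [ha ⟨z, hzQ⟩, hfix _ α.2 ⟨z, hzQ⟩ rfl]
      yQ := fun h4 => hyQ (by
        have h5 := mul_mem hx h4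
        rwa [mul_inv_cancel_left] at h5)
      yN := fun q hq => by
        rw [← hc' ⟨q, hq⟩]
        exact SetLike.coe_mem _
      yy := by
        have h4 : y * x⁻¹ * y⁻¹ ∈ Q := by
          have h5 := hcq ⟨x⁻¹, inv_mem hx⟩
          change _ = y * x⁻¹ * y⁻¹ at h5
          rw [← h5]
          exact SetLike.coe_mem _
        have h5 : x⁻¹ * y * (x⁻¹ * y) = x⁻¹ * (y * x⁻¹ * y⁻¹) * (y * y) := by group
        rw [h5]
        exact mul_mem (mul_mem (inv_mem hx) h4) hyy
      inv := fun q hq => by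
        have h4 := hc' ((α : MulAut Q) ⟨q, hq⟩)
        rw [← ha ⟨q, hq⟩] at h4
        change _ = x⁻¹ * y * a q * (x⁻¹ * y)⁻¹ at h4
        rw [← h4, ha]
        have h5 : (α : MulAut Q) ((((n : A)⁻¹ * c : A) : MulAut Q) ((α : MulAut Q) ⟨q, hq⟩)) =
          ((α * ((n : A)⁻¹ * c) * α : A) : MulAut Q) ⟨q, hq⟩ := rfl
        rw [h5, hrel, hc' ⟨q, hq⟩] }
  by_contra hno
  push Not at hno
  apply hh1
  have h4 : α = 1 := by
    apply Subtype.ext
    apply MulEquiv.ext
    intro q
    apply Subtype.ext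
    rw [← ha q, hno q q.2]
    rfl
  apply Subtype.ext
  rw [← hφα, h4, map_one]
  rfl

end main

end Cfsg.Agent.H618.TwoLoc
end

-- part: H617/Two/EssMain
section
/-!
# S4543: the group theory of an essential subgroup, assembly

`exists_good`: a nonabelian group `D` with `Good D` has a central element `z ≠ 1` such that no
subgroup `Q` has a local situation `Ess z Q A`.
-/

set_option autoImplicit false

namespace Cfsg.Agent.H617.Two

open Subgroup

/-- The local situation at an essential subgroup `Q` with automorphism group `A` fixing `z`. -/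
structure Ess {D : Type*} [Group D] (z : D) (Q : Subgroup D) (A : Subgroup (MulAut Q)) : Prop where
  ne : Q ≠ ⊤
  cent : ∀ x : D, (∀ q ∈ Q, x * q = q * x) → x ∈ Q
  fix : ∀ β ∈ A, ∀ q : Q, (q : D) = z → β q = q
  conj : ∀ β : MulAut Q, (∃ x : D, ∀ q : Q, ((β q : Q) : D) = x * q * x⁻¹) → β ∈ A
  syl : ∀ T : Subgroup (MulAut Q),
    (∀ β, β ∈ T ↔ ∃ x : D, ∀ q : Q, ((β q : Q) : D) = x * q * x⁻¹) → ¬ 2 ∣ T.relIndex A
  rad : ∀ N : Subgroup A, N.Normal → IsPGroup 2 N → ∀ β ∈ N, ∃ x ∈ Q,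
      ∀ q : Q, ((((β : A) : MulAut Q) q : Q) : D) = x * q * x⁻¹

variable {D : Type*} [Group D]

/-- Conjugation by an element normalizing `Q`, as an automorphism of `Q`. -/
noncomputable def conjQ (Q : Subgroup D) (x : D) (hx : x ∈ normalizer (Q : Set D)) : MulAut Q :=
  (MulAut.conjNormal (⟨x, hx⟩ : normalizer (Q : Set D)) : MulAut (Q.subgroupOf _)).trans
    (MulEquiv.refl _) |> fun e =>
      ((Subgroup.subgroupOfEquivOfLe (Subgroup.le_normalizer (H := Q))).symm.trans e).trans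
        (Subgroup.subgroupOfEquivOfLe (Subgroup.le_normalizer (H := Q)))

theorem conjQ_apply (Q : Subgroup D) (x : D) (hx : x ∈ normalizer (Q : Set D)) (q : Q) :
    ((conjQ Q x hx q : Q) : D) = x * q * x⁻¹ := rfl

/-- The automorphisms of `Q` induced by conjugation in `D`. -/
def autD (Q : Subgroup D) : Subgroup (MulAut Q) where
  carrier := {β | ∃ x : D, ∀ q : Q, ((β q : Q) : D) = x * q * x⁻¹}
  one_mem' := ⟨1, fun q => by simp⟩
  mul_mem' := by
    rintro β γ ⟨x, hx⟩ ⟨y, hy⟩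
    refine ⟨x * y, fun q => ?_⟩
    rw [MulAut.mul_apply, hx, hy]
    group
  inv_mem' := by
    rintro β ⟨x, hx⟩
    refine ⟨x⁻¹, fun q => ?_⟩
    have h := hx (β⁻¹ q)
    rw [← MulAut.mul_apply, mul_inv_cancel, MulAut.one_apply] at h
    rw [h]
    group

theorem mem_autD {Q : Subgroup D} {β : MulAut Q} :
    β ∈ autD Q ↔ ∃ x : D, ∀ q : Q, ((β q : Q) : D) = x * q * x⁻¹ := Iff.rfl

section ess

variable [Finite D] {z : D} {Q : Subgroup D} {A : Subgroup (MulAut Q)}

theorem Ess.mem (h : Ess z Q A) (hz : z ∈ center D) : z ∈ Q :=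
  h.cent z fun q _ => (mem_center_iff.1 hz q).symm

omit [Finite D] in
/-- An element acting on `Q` like an element of `Q` lies in `Q`. -/
theorem Ess.mem_of_conj (h : Ess z Q A) {x w : D} (hw : w ∈ Q)
    (hx : ∀ q ∈ Q, x * q * x⁻¹ = w * q * w⁻¹) : x ∈ Q := by
  have h1 : w⁻¹ * x ∈ Q := by
    refine h.cent _ fun q hq => ?_
    have h2 := hx q hq
    calc w⁻¹ * x * q = w⁻¹ * (x * q * x⁻¹) * x := by group
      _ = w⁻¹ * (w * q * w⁻¹) * x := by rw [h2]
      _ = q * (w⁻¹ * x) := by group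
  have h3 := Q.mul_mem hw h1
  rwa [mul_inv_cancel_left] at h3

theorem Ess.exists_norm (h : Ess z Q A) (h2 : IsPGroup 2 D) :
    ∃ y ∈ normalizer (Q : Set D), y ∉ Q := by
  have := Fact.mk Nat.prime_two
  have hnil := h2.isNilpotent
  have h1 : Q < normalizer (Q : Set D) := Group.normalizerCondition_of_isNilpotent Q (lt_top_iff_ne_top.2 h.ne)
  obtain ⟨y, hy, hyQ⟩ := SetLike.exists_of_lt h1
  exact ⟨y, hy, hyQ⟩

/-- `A` is not a 2-group. -/
theorem Ess.not_isPGroup (h : Ess z Q A) (h2 : IsPGroup 2 D) : ¬ IsPGroup 2 A := by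
  intro hA
  obtain ⟨y, hy, hyQ⟩ := h.exists_norm h2
  have hmem : conjQ Q y hy ∈ A := h.conj _ ⟨y, fun q => conjQ_apply Q y hy q⟩
  obtain ⟨w, hw, hw1⟩ := h.rad ⊤ inferInstance (hA.to_subgroup ⊤) ⟨_, hmem⟩ trivial
  exact hyQ (h.mem_of_conj hw fun q hq => hw1 ⟨q, hq⟩)

/-- `Q / ⟨z⟩` is self-centralizing. -/
theorem Ess.self (h : Ess z Q A) (hz : z ∈ center D) (hzz : z * z = 1) (x : D)
    (hx : ∀ q ∈ Q, x * q = q * x ∨ x * q = z * (q * x)) : x ∈ Q := by
  have hzc : ∀ w, w * z = z * w := fun w => mem_center_iff.1 hz w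
  have hzQ := h.mem hz
  have hxN : x ∈ normalizer (Q : Set D) := by
    have h1 : ∀ q ∈ Q, x * q * x⁻¹ ∈ Q := by
      intro q hq
      rcases hx q hq with h2 | h2
      · rw [h2, mul_inv_cancel_right]; exact hq
      · rw [h2, mul_assoc, mul_inv_cancel_right]; exact Q.mul_mem hzQ hq
    rw [mem_normalizer_iff]
    intro q
    refine ⟨h1 q, fun hq => ?_⟩
    -- finiteness: conjugation by `x` maps `Q` into `Q`, so onto
    obtain ⟨⟨r, hr⟩, hr'⟩ := (Finite.injective_iff_surjective (f := fun r : Q =>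
      (⟨x * r * x⁻¹, h1 r r.2⟩ : Q))).1 (by
        intro r s hrs
        have := congrArg Subtype.val hrs
        exact Subtype.ext (by simpa using this)) ⟨_, hq⟩
    have h3 : x * r * x⁻¹ = x * q * x⁻¹ := congrArg Subtype.val hr'
    have h4 : r = q := by simpa using h3
    exact h4 ▸ hr
  have hmem : conjQ Q x hxN ∈ A := h.conj _ ⟨x, fun q => conjQ_apply Q x hxN q⟩
  -- the normal subgroup
  let N : Subgroup A :=
    { carrier := {β | ∀ q : Q, (((β : MulAut Q) q : Q) : D) = q ∨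
        (((β : MulAut Q) q : Q) : D) = z * q}
      one_mem' := fun q => Or.inl rfl
      mul_mem' := by
        intro β γ hβ hγ q
        have hb := hβ ((γ : MulAut Q) q)
        change (((β : MulAut Q) ((γ : MulAut Q) q) : Q) : D) = q ∨
          (((β : MulAut Q) ((γ : MulAut Q) q) : Q) : D) = z * q
        rcases hγ q with h1 | h1 <;> rcases hb with h2 | h2
        · left; rw [h2, h1]
        · right; rw [h2, h1]
        · right; rw [h2, h1]
        · left; rw [h2, h1, ← mul_assoc, hzz, one_mul]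
      inv_mem' := by
        intro β hβ q
        have hb := hβ ((β⁻¹ : A).1 q)
        have h1 : (β : MulAut Q) ((β⁻¹ : A).1 q) = q := by
          change (β : MulAut Q) ((β : MulAut Q)⁻¹ q) = q
          rw [← MulAut.mul_apply, mul_inv_cancel, MulAut.one_apply]
        rw [h1] at hb
        rcases hb with h2 | h2
        · left; exact h2.symm
        · right
          rw [h2, ← mul_assoc, hzz, one_mul] }
  have hN : N.Normal := by
    refine ⟨fun β hβ γ q => ?_⟩
    change (((γ : MulAut Q) ((β : MulAut Q) ((γ : MulAut Q)⁻¹ q)) : Q) : D) = q ∨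
      (((γ : MulAut Q) ((β : MulAut Q) ((γ : MulAut Q)⁻¹ q)) : Q) : D) = z * q
    have hγ : (γ : MulAut Q) ((γ : MulAut Q)⁻¹ q) = q := by
      rw [← MulAut.mul_apply, mul_inv_cancel, MulAut.one_apply]
    rcases hβ ((γ : MulAut Q)⁻¹ q) with h1 | h1
    · left
      have h2 : (β : MulAut Q) ((γ : MulAut Q)⁻¹ q) = (γ : MulAut Q)⁻¹ q := Subtype.ext h1
      rw [h2, hγ]
    · right
      have h2 : (β : MulAut Q) ((γ : MulAut Q)⁻¹ q) = ⟨z, hzQ⟩ * (γ : MulAut Q)⁻¹ q :=
        Subtype.ext h1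
      rw [h2, map_mul, hγ, h.fix _ γ.2 ⟨z, hzQ⟩ rfl]
      rfl
  have hN2 : IsPGroup 2 N := by
    intro β
    refine ⟨1, ?_⟩
    rw [pow_one, sq]
    refine Subtype.ext (Subtype.ext (MulEquiv.ext fun q => Subtype.ext ?_))
    change ((((β : A) : MulAut Q) (((β : A) : MulAut Q) q) : Q) : D) = q
    rcases β.2 q with h1 | h1
    · have h2 : ((β : A) : MulAut Q) q = q := Subtype.ext h1
      rw [h2, h2]
    · have h2 : ((β : A) : MulAut Q) q = ⟨z, hzQ⟩ * q := Subtype.ext h1
      have h3 : ((β : A) : MulAut Q) ⟨z, hzQ⟩ = ⟨z, hzQ⟩ := h.fix _ (β : A).2 ⟨z, hzQ⟩ rfl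
      rw [h2, map_mul, h3, h2]
      change z * (z * (q : D)) = q
      rw [← mul_assoc, hzz, one_mul]
  have hxm : (⟨_, hmem⟩ : A) ∈ N := by
    intro q
    change x * (q : D) * x⁻¹ = q ∨ x * (q : D) * x⁻¹ = z * q
    rcases hx q q.2 with h1 | h1
    · left; rw [h1, mul_inv_cancel_right]
    · right; rw [h1, mul_assoc, mul_inv_cancel_right]
  obtain ⟨w, hw, hw1⟩ := h.rad N hN hN2 ⟨_, hmem⟩ hxm
  exact h.mem_of_conj hw fun q hq => hw1 ⟨q, hq⟩

/-- `|Q| ≥ 8`. -/
theorem Ess.not_card_le_four (h : Ess z Q A) (h2 : IsPGroup 2 D) (hz : z ∈ center D)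
    (hz1 : z ≠ 1) (hzz : z * z = 1) (hQ : Nat.card Q ≤ 4) : False := by
  apply h.not_isPGroup h2
  have hzQ := h.mem hz
  intro β
  refine ⟨1, ?_⟩
  rw [pow_one, sq]
  refine Subtype.ext (MulEquiv.ext fun q => ?_)
  change (β : MulAut Q) ((β : MulAut Q) q) = q
  set Z : Q := ⟨z, hzQ⟩ with hZ
  have hZ1 : Z ≠ 1 := fun h => hz1 (congrArg Subtype.val h)
  have hZZ : Z * Z = 1 := Subtype.ext hzz
  have hβZ : (β : MulAut Q) Z = Z := h.fix _ β.2 Z rfl
  by_contra hne
  have h1 : (β : MulAut Q) q ≠ q := fun h => hne (by rw [h, h])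
  -- `1, Z, q, β q, Z q` are distinct unless `β q = Z q`
  have hq1 : q ≠ 1 := fun h => h1 (by rw [h, map_one])
  have hqZ : q ≠ Z := fun h => h1 (by rw [h, hβZ])
  have hb1 : (β : MulAut Q) q ≠ 1 := fun h => hq1 (by
    have := congrArg (β : MulAut Q).symm h
    simpa using this)
  have hbZ : (β : MulAut Q) q ≠ Z := fun h => hqZ ((β : MulAut Q).injective (by rw [h, hβZ]))
  by_cases hb : (β : MulAut Q) q = Z * q
  · apply hne
    rw [hb, map_mul, hβZ, hb, ← mul_assoc, hZZ, one_mul]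
  · have hZq1 : Z * q ≠ 1 := fun h => hqZ (by
      have : Z * (Z * q) = Z := by rw [h, mul_one]
      rwa [← mul_assoc, hZZ, one_mul] at this)
    have hZqZ : Z * q ≠ Z := fun h => hq1 (mul_eq_left.1 h)
    have hZqq : Z * q ≠ q := fun h => hZ1 (mul_eq_right.1 h)
    have : 5 ≤ Nat.card Q := by
      classical
      have := Fintype.ofFinite Q
      rw [Nat.card_eq_fintype_card]
      have h5 : ({1, Z, q, (β : MulAut Q) q, Z * q} : Finset Q).card = 5 := by
        rw [Finset.card_insert_of_notMem, Finset.card_insert_of_notMem,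
          Finset.card_insert_of_notMem, Finset.card_insert_of_notMem, Finset.card_singleton]
        · simp only [Finset.mem_singleton]; exact hb
        · simp only [Finset.mem_insert, Finset.mem_singleton, not_or]
          exact ⟨h1.symm, hZqq.symm⟩
        · simp only [Finset.mem_insert, Finset.mem_singleton, not_or]
          exact ⟨hqZ.symm, hbZ.symm, hZqZ.symm⟩
        · simp only [Finset.mem_insert, Finset.mem_singleton, not_or]
          exact ⟨hZ1.symm, hq1.symm, hb1.symm, hZq1.symm⟩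
      rw [← h5]
      exact Finset.card_le_univ _
    omega

end ess

end Cfsg.Agent.H617.Two
end

-- part: H617/Two/CardNorm
section
/-!
# S4543: `|N_D(Q)| = 32` for a local situation with `|Q| = 16`
-/

set_option autoImplicit false
set_option linter.unusedSectionVars false

namespace Cfsg.Agent.H617.Two

open Subgroup

theorem conjQ_mul {D : Type*} [Group D] (Q : Subgroup D) (x y : D)
    (hx : x ∈ normalizer (Q : Set D)) (hy : y ∈ normalizer (Q : Set D))
    (hxy : x * y ∈ normalizer (Q : Set D)) :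
    conjQ Q (x * y) hxy = conjQ Q x hx * conjQ Q y hy := by
  refine MulEquiv.ext fun q => Subtype.ext ?_
  rw [conjQ_apply, MulAut.mul_apply, conjQ_apply, conjQ_apply]
  group

theorem card_norm {D : Type*} [Group D] [Finite D] (hD : Nat.card D = 64) {Q : Subgroup D}
    (hQ : Nat.card Q = 16) (cent : ∀ x : D, (∀ q ∈ Q, x * q = q * x) → x ∈ Q)
    (A : Subgroup (MulAut Q)) (T : Subgroup (MulAut Q))
    (hT : ∀ β : MulAut Q, β ∈ T ↔ ∃ x : D, ∀ q : Q, ((β q : Q) : D) = x * q * x⁻¹)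
    (hTA : T ≤ A) (hsyl : ¬ 2 ∣ T.relIndex A)
    (hrad : ∀ N : Subgroup A, N.Normal → IsPGroup 2 N → ∀ β ∈ N, ∃ x ∈ Q,
      ∀ q : Q, ((((β : A) : MulAut Q) q : Q) : D) = x * q * x⁻¹)
    {V : Type*} [Group V] [Finite V] (h8 : Nat.card V ∣ 8) (hel : ∀ v : V, v * v = 1)
    (φ : A →* MulAut V) (hker : IsPGroup 2 φ.ker)
    (hinn : ∀ β : A, (∃ x ∈ Q, ∀ q : Q, (((β : MulAut Q) q : Q) : D) = x * q * x⁻¹) → φ β = 1) :
    Nat.card (normalizer (Q : Set D)) = 32 := by
  have hp : Fact (Nat.Prime 2) := ⟨Nat.prime_two⟩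
  have h2 : IsPGroup 2 D := IsPGroup.of_card (n := 6) (by rw [hD]; norm_num)
  have hne : Q ≠ ⊤ := by
    rintro rfl
    rw [Subgroup.card_top, hD] at hQ
    omega
  have hnil := h2.isNilpotent
  have hlt : Q < normalizer (Q : Set D) :=
    Group.normalizerCondition_of_isNilpotent Q (lt_top_iff_ne_top.2 hne)
  -- the order of the normalizer
  have hcardN : Nat.card (normalizer (Q : Set D)) ∣ 2 ^ 6 := by
    have := (normalizer (Q : Set D)).card_subgroup_dvd_card
    rwa [hD] at this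
  obtain ⟨k, hk, hk'⟩ := (Nat.dvd_prime_pow Nat.prime_two).1 hcardN
  have hlt' : 16 < Nat.card (normalizer (Q : Set D)) := by
    rw [← hQ]
    exact Set.ncard_lt_ncard hlt
  have hk5 : k = 5 ∨ k = 6 := by
    rw [hk'] at hlt'
    have : 4 < k := by
      by_contra hcon
      have h3 : 2 ^ k ≤ 2 ^ 4 := Nat.pow_le_pow_right (by norm_num) (by omega)
      omega
    omega
  rcases hk5 with h5 | h6
  · rw [hk', h5]; norm_num
  exfalso
  have htop : normalizer (Q : Set D) = ⊤ := by
    rw [← Subgroup.card_eq_iff_eq_top, hk', h6, hD]; norm_num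
  have hmemN : ∀ x : D, x ∈ normalizer (Q : Set D) := fun x => by rw [htop]; trivial
  have hcT : ∀ x : D, conjQ Q x (hmemN x) ∈ T := fun x =>
    (hT _).2 ⟨x, fun q => conjQ_apply Q x (hmemN x) q⟩
  let g : D →* A := MonoidHom.mk' (fun x => ⟨conjQ Q x (hmemN x), hTA (hcT x)⟩) (fun x y =>
    Subtype.ext (conjQ_mul Q x y _ _ _))
  have hg : ∀ (x : D) (q : Q), ((((g x : A) : MulAut Q) q : Q) : D) = x * q * x⁻¹ :=
    fun x q => conjQ_apply Q x (hmemN x) q
  have hkg : (φ.comp g).ker = Q := by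
    ext x
    rw [MonoidHom.mem_ker, MonoidHom.comp_apply]
    constructor
    · intro h1
      obtain ⟨w, hw, hw'⟩ := hrad φ.ker inferInstance hker (g x) h1
      have h3 : w⁻¹ * x ∈ Q := by
        refine cent _ fun q hq => ?_
        have h4 := hw' ⟨q, hq⟩
        rw [hg] at h4
        change x * q * x⁻¹ = w * q * w⁻¹ at h4
        calc w⁻¹ * x * q = w⁻¹ * (x * q * x⁻¹) * x := by group
          _ = w⁻¹ * (w * q * w⁻¹) * x := by rw [h4]
          _ = q * (w⁻¹ * x) := by group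
      have h4 := Q.mul_mem hw h3
      rwa [mul_inv_cancel_left] at h4
    · intro hx
      exact hinn _ ⟨x, hx, hg x⟩
  have hrange : Nat.card (φ.comp g).range = 4 := by
    have h1 := (φ.comp g).ker.index_mul_card
    have h3 := Subgroup.index_ker (φ.comp g)
    have h4 : Nat.card (φ.comp g).ker = 16 := (congrArg (fun K : Subgroup D => Nat.card K) hkg).trans hQ
    rw [h4, hD, h3] at h1
    omega
  -- the image of `T`
  let r := φ.rangeRestrict
  have hr : Function.Surjective r := φ.rangeRestrict_surjective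
  have hTr : ((T.subgroupOf A).map r).map φ.range.subtype = (φ.comp g).range := by
    ext v
    constructor
    · rintro ⟨_, ⟨β, hβ, rfl⟩, rfl⟩
      obtain ⟨x, hx⟩ := (hT β).1 hβ
      refine ⟨x, ?_⟩
      change φ (g x) = φ β
      congr 1
      refine Subtype.ext (MulEquiv.ext fun q => Subtype.ext ?_)
      rw [hg, hx]
    · rintro ⟨x, rfl⟩
      exact ⟨r (g x), ⟨g x, hcT x, rfl⟩, rfl⟩
  have hcT' : Nat.card ((T.subgroupOf A).map r) = 4 := by
    rw [← hrange, ← hTr]
    exact (Subgroup.card_map_of_injective (Subgroup.subtype_injective _)).symm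
  have hidx : ¬ 2 ∣ ((T.subgroupOf A).map r).index := fun h =>
    hsyl (h.trans (Subgroup.index_map_dvd _ hr))
  have hcard := ((T.subgroupOf A).map r).card_mul_index
  rw [hcT'] at hcard
  obtain ⟨N, hN, hN2, hNb⟩ := Cfsg.Agent.H809.Two.T1a h8 hel φ.range
    (by rw [← hcard]; exact dvd_mul_right _ _) (by
      rw [← hcard]
      rintro ⟨c, hc⟩
      exact hidx ⟨c, by omega⟩)
  apply hNb
  rw [eq_bot_iff]
  intro v hv
  obtain ⟨β, rfl⟩ := hr v
  have hker' : IsPGroup 2 r.ker := by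
    have : r.ker = φ.ker := φ.ker_rangeRestrict
    rw [this]; exact hker
  have h1 := hrad (N.comap r) (hN.comap r) (hN2.comap_of_ker_isPGroup r hker') β hv
  rw [Subgroup.mem_bot]
  exact Subtype.ext (hinn β h1)

end Cfsg.Agent.H617.Two
end

-- part: H618/TwoT2
section
/-!
# S4543, T2 (helper618)
-/

set_option autoImplicit false
set_option linter.unusedSectionVars false

namespace Cfsg.Agent.H618.TwoT2

open Subgroup Cfsg.Agent.H617.Two Cfsg.Agent.H618.TwoLoc

theorem T2 {D : Type*} [Group D] [Finite D] (hG : Good D) {Q : Subgroup D} {z : D}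
    (hz : z ∈ center D) (hz1 : z ≠ 1) (hQ : Q ≠ ⊤) (h16 : 16 ≤ Nat.card Q)
    (cent : ∀ x : D, (∀ q ∈ Q, x * q = q * x) → x ∈ Q)
    (A : Subgroup (MulAut Q)) (hfix : ∀ β ∈ A, ∀ q : Q, (q : D) = z → β q = q)
    (T : Subgroup (MulAut Q))
    (hT : ∀ β : MulAut Q, β ∈ T ↔ ∃ x : D, ∀ q : Q, ((β q : Q) : D) = x * q * x⁻¹)
    (hTA : T ≤ A) (hsyl : ¬ 2 ∣ T.relIndex A)
    (hrad : ∀ N : Subgroup A, N.Normal → IsPGroup 2 N → ∀ β ∈ N, ∃ x ∈ Q,
      ∀ q : Q, ((((β : A) : MulAut Q) q : Q) : D) = x * q * x⁻¹) :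
    (Nat.card Q = 16 → Nat.card (normalizer (Q : Set D)) = 32) ∧
      ∃ (a : D → D) (y : D), Loc Q z a y := by
  have h2 : IsPGroup 2 D := IsPGroup.of_card (n := 6) (by rw [hG.card]; norm_num)
  have hzQ : z ∈ Q := cent z fun q _ => (mem_center_iff.1 hz q).symm
  obtain ⟨z', hz'⟩ : ∃ z' : Q, z' = ⟨z, hzQ⟩ := ⟨_, rfl⟩
  have hzc : (z' : D) = z := by rw [hz']
  have hz'1 : z' ≠ 1 := by
    intro h
    rw [h] at hzc
    exact hz1 hzc.symm
  have hcent : ∀ x : Q, x * z' = z' * x := fun x => Subtype.ext (by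
    rw [Subgroup.coe_mul, Subgroup.coe_mul, hzc]
    exact mem_center_iff.1 hz x)
  have hn := sqz_normal hcent
  have hA : ∀ β ∈ A, β z' = z' := fun β hβ => hfix β hβ z' hzc
  have hQ2 : IsPGroup 2 Q := h2.to_subgroup Q
  have hcard := card_quot hG hQ h16 hz'1
  have hker := ker_pgroup hQ2 A hA
  have hinn : ∀ β : A, (∃ x ∈ Q, ∀ q : Q, (((β : MulAut Q) q : Q) : D) = x * q * x⁻¹) →
      phi z' A hA β = 1 := by
    rintro β ⟨x, hx, h⟩
    rw [phi_eq_one]
    intro q
    obtain ⟨x', hx'⟩ : ∃ x' : Q, x' = ⟨x, hx⟩ := ⟨_, rfl⟩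
    have h1 : (β : MulAut Q) q = x' * q * x'⁻¹ := Subtype.ext (by
      rw [h q, hx']
      rfl)
    have h3 : q⁻¹ * (β : MulAut Q) q = (q⁻¹ * q⁻¹) * ((q * x') * (q * x')) * (x'⁻¹ * x'⁻¹) := by
      rw [h1]
      group
    rw [h3]
    exact mul_mem (mul_mem (sq_mem _ _) (sq_mem _ _)) (sq_mem _ _)
  refine ⟨fun h => ?_, ?_⟩
  · exact card_norm hG.card h cent A T hT hTA hsyl hrad hcard (quot_sq z') (phi z' A hA) hker hinn
  · exact exists_loc h2 hz hz1 hQ hzQ cent A hfix T hT hTA hrad hcard (quot_sq z') (phi z' A hA)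
      hker hinn

end Cfsg.Agent.H618.TwoT2
end
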